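import Cfsg.Agent.H780.HL.Hs

/-!
# S5175 [L]: the automorphisms of the Heisenberg group preserving `V`, `V^x`, `E`, `E^x` (helper780)
-/

set_option autoImplicit false

namespace Cfsg.Agent.H780.HL

namespace Hs

variable {K : Type*} [Field K]

/-- The functional equation `l (x y) = g x * f y` for additive maps. -/
theorem fun_eq [Finite K] (f g l : K →+ K) (h : ∀ x y, l (x * y) = g x * f y) (hl : l 1 ≠ 0) :
    ∃ (ν ν' : Kˣ) (σ : K ≃+* K), (∀ x, f x = ν * σ x) ∧ (∀ x, g x = ν' * σ x) ∧ ∀ x, l x = ν * ν' * σ x := by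
  have h11 : l 1 = g 1 * f 1 := by rw [← h, mul_one]
  have hf : f 1 ≠ 0 := fun h0 => hl (by rw [h11, h0, mul_zero])
  have hg : g 1 ≠ 0 := fun h0 => hl (by rw [h11, h0, zero_mul])
  have hmul : ∀ x y, l (x * y) * l 1 = l x * l y := by
    intro x y
    have e1 : l x = g x * f 1 := by rw [← h, mul_one]
    have e2 : l y = g 1 * f y := by rw [← h, one_mul]
    rw [e1, e2, h, h11]; ring
  let σ₀ : K →+* K :=
    { toFun := fun x => l x / l 1
      map_one' := div_self hl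
      map_mul' := fun x y => by
        rw [div_mul_div_comm, ← hmul, mul_div_mul_right _ _ hl]
      map_zero' := by rw [map_zero, zero_div]
      map_add' := fun x y => by rw [map_add, add_div] }
  have hσ : ∀ x, σ₀ x = l x / l 1 := fun x => rfl
  have hbij : Function.Bijective σ₀ := Finite.injective_iff_bijective.1 σ₀.injective
  let σ : K ≃+* K := RingEquiv.ofBijective σ₀ hbij
  have hσ' : ∀ x, σ x = l x / l 1 := fun x => rfl
  refine ⟨Units.mk0 (f 1) hf, Units.mk0 (g 1) hg, σ, fun x => ?_, fun x => ?_, fun x => ?_⟩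
  · rw [hσ', Units.val_mk0, h11]
    have e2 : l x = g 1 * f x := by rw [← h, one_mul]
    rw [e2]; field_simp
  · rw [hσ', Units.val_mk0, h11]
    have e2 : l x = g x * f 1 := by rw [← h, mul_one]
    rw [e2]; field_simp
  · rw [hσ', Units.val_mk0, Units.val_mk0, h11]
    field_simp

/-- on `V`: the image of the Weyl matrix is linear -/
def LinV (α : MulAut (Hs K)) : Prop :=
  ∃ p q r s : K, ∀ a c : K, α ⟨-c, 0, a⟩ =
    ⟨p * (α ⟨a, 0, c⟩).c + q * (α ⟨a, 0, c⟩).a, 0, r * (α ⟨a, 0, c⟩).c + s * (α ⟨a, 0, c⟩).a⟩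

/-- on `V^x`: the image of the Weyl matrix is linear -/
def LinV' (α : MulAut (Hs K)) : Prop :=
  ∃ p q r s : K, ∀ b c : K, α ⟨0, -c, b⟩ =
    ⟨0, p * (α ⟨0, b, c⟩).c + q * (α ⟨0, b, c⟩).b, r * (α ⟨0, b, c⟩).c + s * (α ⟨0, b, c⟩).b⟩

/-- **The automorphisms preserving the two abelian subgroups and the two natural modules.** -/
theorem aut_form [Finite K] (α : MulAut (Hs K)) (h1 : ∀ t : Hs K, t.b = 0 → (α t).b = 0)
    (h2 : ∀ t : Hs K, t.a = 0 → (α t).a = 0) (h3 : LinV α) (h4 : LinV' α) :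
    ∃ (t : Hs K) (ν ν' : Kˣ) (σ : K ≃+* K), α = MulAut.conj t * del ν ν' σ := by
  -- the additive maps
  have hV : ∀ a c a' c' : K, (⟨a, 0, c⟩ : Hs K) * ⟨a', 0, c'⟩ = ⟨a + a', 0, c + c'⟩ := by
    intro a c a' c'; ext <;> simp
  have hV' : ∀ b c b' c' : K, (⟨0, b, c⟩ : Hs K) * ⟨0, b', c'⟩ = ⟨0, b + b', c + c'⟩ := by
    intro a c a' c'; ext <;> simp
  have hbV : ∀ a c : K, (α ⟨a, 0, c⟩).b = 0 := fun a c => h1 _ rfl
  have haV : ∀ b c : K, (α ⟨0, b, c⟩).a = 0 := fun a c => h2 _ rfl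
  have addV : ∀ a c a' c' : K, α ⟨a + a', 0, c + c'⟩ =
      ⟨(α ⟨a, 0, c⟩).a + (α ⟨a', 0, c'⟩).a, 0, (α ⟨a, 0, c⟩).c + (α ⟨a', 0, c'⟩).c⟩ := by
    intro a c a' c'
    rw [← hV, map_mul]
    ext
    · simp
    · simp [hbV]
    · simp [hbV]
  have addV' : ∀ b c b' c' : K, α ⟨0, b + b', c + c'⟩ =
      ⟨0, (α ⟨0, b, c⟩).b + (α ⟨0, b', c'⟩).b, (α ⟨0, b, c⟩).c + (α ⟨0, b', c'⟩).c⟩ := by
    intro b c b' c'
    rw [← hV', map_mul]
    ext
    · simp [haV]
    · simp
    · simp [haV]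
  let f : K →+ K := AddMonoidHom.mk' (fun a => (α ⟨a, 0, 0⟩).a) (fun a a' => by
    have := addV a 0 a' 0
    rw [add_zero] at this
    rw [this])
  let g : K →+ K := AddMonoidHom.mk' (fun b => (α ⟨0, b, 0⟩).b) (fun b b' => by
    have := addV' b 0 b' 0
    rw [add_zero] at this
    rw [this])
  let l : K →+ K := AddMonoidHom.mk' (fun c => (α ⟨0, 0, c⟩).c) (fun c c' => by
    have := addV 0 c 0 c'
    rw [add_zero] at this
    rw [this])
  let μ : K →+ K := AddMonoidHom.mk' (fun a => (α ⟨a, 0, 0⟩).c) (fun a a' => by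
    have := addV a 0 a' 0
    rw [add_zero] at this
    rw [this])
  let μ' : K →+ K := AddMonoidHom.mk' (fun b => (α ⟨0, b, 0⟩).c) (fun b b' => by
    have := addV' b 0 b' 0
    rw [add_zero] at this
    rw [this])
  have hZ : ∀ c, α ⟨0, 0, c⟩ = ⟨0, 0, l c⟩ := by
    intro c
    ext
    · exact haV 0 c
    · exact hbV 0 c
    · rfl
  have hA : ∀ a, α ⟨a, 0, 0⟩ = ⟨f a, 0, μ a⟩ := by
    intro a
    ext
    · rfl
    · exact hbV a 0
    · rfl
  have hB : ∀ b, α ⟨0, b, 0⟩ = ⟨0, g b, μ' b⟩ := by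
    intro b
    ext
    · exact haV b 0
    · rfl
    · rfl
  have hAC : ∀ a c, α ⟨a, 0, c⟩ = ⟨f a, 0, l c + μ a⟩ := by
    intro a c
    have := addV 0 c a 0
    rw [zero_add, add_zero, hZ, hA] at this
    rw [this]
    ext <;> simp
  have hBC : ∀ b c, α ⟨0, b, c⟩ = ⟨0, g b, l c + μ' b⟩ := by
    intro b c
    have := addV' 0 c b 0
    rw [zero_add, add_zero, hZ, hB] at this
    rw [this]
    ext <;> simp
  -- the functional equation
  have hfe : ∀ x y, l (x * y) = g x * f y := by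
    intro x y
    have e1 : (⟨0, x, 0⟩ : Hs K) * ⟨y, 0, 0⟩ = ⟨0, 0, x * y⟩ * (⟨y, 0, 0⟩ * ⟨0, x, 0⟩) := by ext <;> simp
    have e2 := congrArg α e1
    simp only [map_mul, hA, hB, hZ] at e2
    have e3 := congrArg Hs.c e2
    simp only [mul_c, mul_a] at e3
    linear_combination -e3
  have hl1 : l 1 ≠ 0 := by
    intro h0
    have e1 : α ⟨0, 0, 1⟩ = α 1 := by
      rw [hZ, h0, map_one]; rfl
    have e2 := congrArg Hs.c (α.injective e1)
    simp at e2
  obtain ⟨ν, ν', σ, hf, hg, hl⟩ := fun_eq f g l hfe hl1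
  -- the linearity of `μ`, `μ'`
  obtain ⟨m, hm⟩ : ∃ m, ∀ a, μ a = m * σ a := by
    obtain ⟨p, q, r, s, hw⟩ := h3
    simp only [hAC] at hw
    have ea := fun a c => congrArg Hs.a (hw a c)
    simp only at ea
    have e1 := ea 0 1
    have e2 := fun a => ea a 0
    simp only [neg_zero, map_zero, zero_add, add_zero, mul_zero, map_neg, hf, hl, map_one, mul_one] at e1 e2
    have hp : p ≠ 0 := by
      rintro rfl
      rw [zero_mul] at e1
      exact ν.ne_zero (by simpa using e1)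
    refine ⟨-(q * ν) / p, fun a => ?_⟩
    have e3 := e2 a
    field_simp
    linear_combination -e3
  obtain ⟨m', hm'⟩ : ∃ m', ∀ b, μ' b = m' * σ b := by
    obtain ⟨p, q, r, s, hw⟩ := h4
    simp only [hBC] at hw
    have ea := fun a c => congrArg Hs.b (hw a c)
    simp only at ea
    have e1 := ea 0 1
    have e2 := fun a => ea a 0
    simp only [neg_zero, map_zero, zero_add, add_zero, mul_zero, map_neg, hg, hl, map_one, mul_one] at e1 e2
    have hp : p ≠ 0 := by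
      rintro rfl
      rw [zero_mul] at e1
      exact ν'.ne_zero (by simpa using e1)
    refine ⟨-(q * ν') / p, fun a => ?_⟩
    have e3 := e2 a
    field_simp
    linear_combination -e3
  refine ⟨⟨-(m' / ν'), m / ν, 0⟩, ν, ν', σ, ?_⟩
  ext1 t
  have ht : t = ⟨t.a, 0, t.c⟩ * ⟨0, t.b, 0⟩ := by ext <;> simp
  have e1 : α t = ⟨f t.a, 0, l t.c + μ t.a⟩ * ⟨0, g t.b, μ' t.b⟩ := by
    nth_rw 1 [ht]
    rw [map_mul, hAC, hB]
  rw [e1, MulAut.mul_apply, conj_apply, del_apply, hf, hg, hl, hm, hm']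
  have hν := ν.ne_zero
  have hν' := ν'.ne_zero
  ext
  · simp
  · simp
  · simp only [mul_c, mul_zero, add_zero]
    field_simp
    ring

end Hs

end Cfsg.Agent.H780.HL
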