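import Cfsg.Agent.H780.HL.RD
import Cfsg.Agent.H124.SP.BigTF
import Cfsg.Agent.H781.Realized

/-!
# S5175 [L]: comparison of `F` with the fusion system of `PSL₃(K) Y` (helper780)
-/

set_option autoImplicit false
set_option linter.unusedSectionVars false

namespace Cfsg.Agent.H780.HL

open Cfsg Cfsg.FusionSystem Cfsg.Agent.H756.HM Cfsg.Agent.H752 Hs

universe u

/-- matrices with last row `(0,0,1)` act linearly on the vectors of `V` -/
theorem mat_act {K : Type} [Field K] {m : SL3 K} (h0 : m.1 2 0 = 0) (h1 : m.1 2 1 = 0) (h2 : m.1 2 2 = 1) (a d : K) :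
    m * um a 0 d * m⁻¹ = um (m.1 1 0 * d + m.1 1 1 * a) 0 (m.1 0 0 * d + m.1 0 1 * a) := by
  rw [mul_inv_eq_iff_eq_mul]
  refine ext3 fun i j => ?_
  rw [val_mul_apply, val_mul_apply]
  fin_cases i <;> fin_cases j <;> simp [um, h0, h1, h2] <;> ring

theorem det_block {K : Type} [Field K] {m : SL3 K} (h0 : m.1 2 0 = 0) (h1 : m.1 2 1 = 0) (h2 : m.1 2 2 = 1) :
    (!![m.1 0 0, m.1 0 1; m.1 1 0, m.1 1 1] : Matrix (Fin 2) (Fin 2) K).det = 1 := by
  have h := m.2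
  rw [Matrix.det_fin_three] at h
  rw [Matrix.det_fin_two]
  simp only [Matrix.of_apply, Matrix.cons_val', Matrix.cons_val_zero, Matrix.cons_val_one, Matrix.cons_val_fin_one]
  rw [h0, h1, h2] at h
  linear_combination h

variable {Ω : Type u} [Group Ω] {S : Subgroup Ω} {F : FusionSystem S} {K : Type} [Field K] [Fintype K]
  {V T : Subgroup Ω} {x : Ω} {b : Big F K V T x} {c : LC b} {θ : S →* MulAut (SL3 K)} {Y : Subgroup (MulAut (SL3 K))}

theorem card_S (c : LC b) : Nat.card S = 2 * Fintype.card K ^ 3 := by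
  have h3 : Nat.card (T.subgroupOf S) * (T.subgroupOf S).index = Nat.card S := Subgroup.card_mul_index _
  have h4 : (T.subgroupOf S).index = 2 := b.S_idx
  have h5 : Nat.card (T.subgroupOf S) = Nat.card T := Nat.card_congr (Subgroup.subgroupOfEquivOfLe (T_le b)).toEquiv
  rw [h4, h5, ← Nat.card_congr (kapE c).toEquiv, card_hs, Nat.card_eq_fintype_card] at h3
  rw [← h3]; ring

/-- the condition for being a map of the system of `GG Y` -/
def MG (θ : S →* MulAut (SL3 K)) (Y : Subgroup (MulAut (SL3 K))) (P : Subgroup Ω) (f : Ω → Ω) : Prop :=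
  P ≤ S ∧ ∃ g ∈ GG Y, ∀ (y : Ω) (_ : y ∈ P) (hy : y ∈ S), ∃ hfy : f y ∈ S, θ ⟨f y, hfy⟩ = g * θ ⟨y, hy⟩ * g⁻¹

theorem exists_GS [Finite S] (hG1 : StG1) (hS : IsPGroup 2 S) (h : RD c θ Y) :
    ∃ (G : Type u) (_ : Group G) (_ : Finite G) (_ : G ≃* ↥(GG Y)) (ιG : S →* G) (D : FusionSystem S),
      D.IsRealizedBy ιG ∧ (∃ P : Sylow 2 G, (P : Subgroup G) = ιG.range) ∧ D.IsSaturated 2 ∧
      ∀ P f, Mp D P f ↔ MG θ Y P f := by
  have : Fact (Nat.Prime 2) := ⟨Nat.prime_two⟩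
  obtain ⟨⟨m, hm, hcard⟩, -, -⟩ := hG1 Y h.gy
  have hfin : Finite ↥(GG Y) := by
    apply Nat.finite_of_card_ne_zero
    rw [hcard]
    have h1 : 0 < Fintype.card K := Fintype.card_pos
    have h2 : 0 < m := hm.pos
    positivity
  let θ' : S →* ↥(GG Y) := θ.codRestrict (GG Y) h.mem
  let e : ULift.{u} ↥(GG Y) ≃* ↥(GG Y) := MulEquiv.ulift
  let ιG : S →* ULift.{u} ↥(GG Y) := e.symm.toMonoidHom.comp θ'
  have hι : ∀ s, ((e (ιG s) : ↥(GG Y)) : MulAut (SL3 K)) = θ s := by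
    intro s
    show ((e (e.symm (θ' s)) : ↥(GG Y)) : MulAut (SL3 K)) = θ s
    rw [MulEquiv.apply_symm_apply]; rfl
  have hinj : Function.Injective ιG := by
    intro s s' hs
    apply h.inj
    rw [← hι, ← hι, hs]
  have hreal := H781.pullback_isRealizedBy ιG hinj
  have hcG : Nat.card (ULift.{u} ↥(GG Y)) = 2 * Fintype.card K ^ 3 * m := by
    rw [Nat.card_congr e.toEquiv, hcard]
  have hcR : Nat.card ιG.range = 2 * Fintype.card K ^ 3 := by
    rw [← card_S c]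
    exact (Nat.card_congr (MonoidHom.ofInjective hinj).toEquiv).symm
  have hidx : ιG.range.index = m := by
    have h1 := Subgroup.card_mul_index ιG.range
    rw [hcG, hcR] at h1
    have h2 : 0 < 2 * Fintype.card K ^ 3 := by
      have h1 : 0 < Fintype.card K := Fintype.card_pos
      positivity
    exact Nat.eq_of_mul_eq_mul_left h2 h1
  have hp : IsPGroup 2 ιG.range := by
    have h1 : IsPGroup 2 (⊤ : Subgroup S) := hS.to_subgroup ⊤
    have h2 := h1.map ιG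
    rwa [← MonoidHom.range_eq_map] at h2
  have hnd : ¬ 2 ∣ ιG.range.index := by
    rw [hidx]
    rw [Nat.two_dvd_ne_zero, ← Nat.odd_iff]
    exact hm
  have hsat := H781.isSaturated_of_isRealizedBy hreal (hp.toSylow hnd) rfl
  refine ⟨ULift.{u} ↥(GG Y), inferInstance, inferInstance, e, ιG, H781.pullback ιG hinj, hreal,
    ⟨hp.toSylow hnd, rfl⟩, hsat, fun P f => ⟨fun hf => ⟨hf.le, ?_⟩, ?_⟩⟩
  · obtain ⟨g, hg⟩ := H753.exists_conj_of_mp hreal hf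
    refine ⟨e g, (e g).2, fun y hy hyS => ?_⟩
    obtain ⟨h1, h2⟩ := hg y hy hyS
    refine ⟨h1, ?_⟩
    rw [← hι, h2, map_mul, map_mul, map_inv, Subgroup.coe_mul, Subgroup.coe_mul, Subgroup.coe_inv, hι]
  · rintro ⟨hPS, g, hg, hgf⟩
    have h0 : ∀ (y : Ω) (_ : y ∈ P) (hy : y ∈ S), ∃ hfy : f y ∈ S, ιG ⟨f y, hfy⟩ =
        e.symm ⟨g, hg⟩ * ιG ⟨y, hy⟩ * (e.symm ⟨g, hg⟩)⁻¹ := by
      intro y hy hyS
      obtain ⟨h1, h2⟩ := hgf y hy hyS
      refine ⟨h1, e.injective (Subtype.ext ?_)⟩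
      rw [hι, h2, map_mul, map_mul, map_inv, Subgroup.coe_mul, Subgroup.coe_mul, Subgroup.coe_inv, hι,
        MulEquiv.apply_symm_apply]
    obtain ⟨f', hf', h3⟩ := H753.exists_mp_of_conj hreal hPS (e.symm ⟨g, hg⟩) (by
      rintro ⟨y, hy⟩
      obtain ⟨h1, h2⟩ := h0 y hy (hPS hy)
      exact ⟨_, h2⟩)
    refine hf'.congr fun y hy => ?_
    obtain ⟨h1, h2⟩ := h0 y hy (hPS hy)
    obtain ⟨h4, h5⟩ := h3 y hy
    rw [← h2] at h5
    exact (congrArg Subtype.val (hinj h5)).symm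

/-- elements of `S` mapped to inner automorphisms are in `T` -/
theorem inn_T [Finite S] (hG1 : StG1) (h : RD c θ Y) (s : S) (hs : θ s ∈ InnS K) : (s : Ω) ∈ T := by
  by_contra hsT
  obtain ⟨-, ⟨m, hm, hcard⟩, -⟩ := hG1 Y h.gy
  have hTin : ∀ (t : Ω) (ht : t ∈ T), θ ⟨t, T_le b ht⟩ ∈ InnS K := by
    intro t ht
    obtain ⟨r, rfl⟩ := kap_surj c ht
    rw [h.onT]
    exact ⟨_, rfl⟩
  have hx1 : x⁻¹ * s ∈ T := (S_dich b s.2).resolve_left hsT
  have hx2 : θ ⟨x, b.x_mem⟩ ∈ InnS K := by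
    have h1 : (⟨x, b.x_mem⟩ : S) = s * (⟨x⁻¹ * s, T_le b hx1⟩ : S)⁻¹ := by
      apply Subtype.ext
      show x = s * (x⁻¹ * s)⁻¹
      group
    rw [h1, map_mul, map_inv]
    exact mul_mem hs (inv_mem (hTin _ hx1))
  have hall : ∀ r : S, θ r ∈ InnS K := by
    intro r
    rcases S_dich b r.2 with h1 | h1
    · exact hTin _ h1
    · have h2 : r = ⟨x, b.x_mem⟩ * ⟨x⁻¹ * r, T_le b h1⟩ := by
        apply Subtype.ext
        show (r : Ω) = x * (x⁻¹ * r)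
        group
      rw [h2, map_mul]
      exact mul_mem hx2 (hTin _ h1)
  have h1 : Nat.card S ∣ Nat.card (InnS K) := by
    have h2 : Function.Injective (θ.codRestrict (InnS K) hall) := by
      intro r r' hrr
      exact h.inj (congrArg Subtype.val hrr)
    have h3 := Subgroup.card_dvd_of_injective _ h2
    exact h3
  rw [card_S c, hcard, mul_comm 2] at h1
  have h2 : 0 < Fintype.card K ^ 3 := by
    have h1 : 0 < Fintype.card K := Fintype.card_pos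
    positivity
  have h3 := Nat.dvd_of_mul_dvd_mul_left h2 h1
  rw [Nat.odd_iff] at hm
  omega

/-- `T` is strongly closed in the system of `GG Y` -/
theorem closed [Finite S] (hG1 : StG1) (h : RD c θ Y) {P : Subgroup Ω} {f : Ω → Ω} (hf : MG θ Y P f) {t : Ω}
    (htP : t ∈ P) (ht : t ∈ T) : f t ∈ T := by
  obtain ⟨hPS, g, -, hgf⟩ := hf
  obtain ⟨h1, h2⟩ := hgf t htP (hPS htP)
  obtain ⟨r, rfl⟩ := kap_surj c ht
  rw [h.onT, conj_act] at h2
  exact inn_T hG1 h ⟨_, h1⟩ (by rw [h2]; exact ⟨_, rfl⟩)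

theorem mem_V_iff_kap (c : LC b) {v : Ω} (hv : v ∈ V) : ∃ a d : K, v = kap c ⟨a, 0, d⟩ := by
  obtain ⟨s, rfl⟩ := kap_surj c (V_le_T b hv)
  have := (kap_V c s).1 hv
  refine ⟨s.a, s.c, ?_⟩
  congr 1
  ext
  · rfl
  · exact this
  · rfl

/-- (s2) -/
theorem mp_of_mg [Finite S] (hG3 : StG3) (h : RD c θ Y) {f : Ω → Ω} (hf : MG θ Y V f) (hfV : ∀ v ∈ V, f v ∈ V) :
    Mp F V f := by
  obtain ⟨hPS, g, hg, hgf⟩ := hf
  have hkV : ∀ a d : K, kap c ⟨a, 0, d⟩ ∈ V := fun a d => (kap_V c _).2 rfl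
  have hgf' : ∀ a d : K, ∃ a' d' : K, f (kap c ⟨a, 0, d⟩) = kap c ⟨a', 0, d'⟩ ∧
      g * MulAut.conj (um a 0 d) * g⁻¹ = MulAut.conj (um a' 0 d') := by
    intro a d
    obtain ⟨h1, h2⟩ := hgf _ (hkV a d) (hPS (hkV a d))
    obtain ⟨a', d', h3⟩ := mem_V_iff_kap c (hfV _ (hkV a d))
    refine ⟨a', d', h3, ?_⟩
    have h4 : (⟨f (kap c ⟨a, 0, d⟩), h1⟩ : S) = ⟨kap c ⟨a', 0, d'⟩, by rw [← h3]; exact h1⟩ := Subtype.ext h3
    rw [h4, h.onT, h.onT] at h2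
    exact h2.symm
  obtain ⟨m, hm0, hm1, hm2, y, hy, hyDF, rfl⟩ := hG3 Y h.gy g hg fun a d => by
    obtain ⟨a', d', -, h2⟩ := hgf' a d
    exact ⟨a', d', h2⟩
  obtain ⟨f0, hf0, h0⟩ := h.of_y y hy
  obtain ⟨ν, ν', σ, hν⟩ := hyDF
  obtain ⟨e, he, hE⟩ := c.E2 ⟨!![m.1 0 0, m.1 0 1; m.1 1 0, m.1 1 1], det_block hm0 hm1 hm2⟩
  have hf0V : ∀ a d : K, f0 (kap c ⟨a, 0, d⟩) = kap c ⟨(ν : K) * σ a, 0, (ν : K) * ν' * σ d⟩ ∧
      y * MulAut.conj (um a 0 d) * y⁻¹ = MulAut.conj (um ((ν : K) * σ a) 0 ((ν : K) * ν' * σ d)) := by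
    intro a d
    obtain ⟨t', h1, h2⟩ := h0 ⟨a, 0, d⟩
    have h3 : y (um a 0 d) = um ((ν : K) * σ a) 0 ((ν : K) * ν' * σ d) := by
      rw [hν, dg_um, map_zero, mul_zero]
    rw [emb_apply, conj_act, h3] at h2
    have h4 : (⟨(ν : K) * σ a, 0, (ν : K) * ν' * σ d⟩ : Hs K) = t' := conj_emb_inj h2
    refine ⟨by rw [h1, h4], by rw [conj_act, h3]⟩
  have hmp : Mp F V (fun v => ex (fun v : V => ((e v : V) : Ω)) (f0 v)) := by
    refine (hf0.res (V_le_T b)).comp ((mp_iff_autGroup b.V_le e).1 (b.E_le he)) fun v hv => ?_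
    obtain ⟨a, d, rfl⟩ := mem_V_iff_kap c hv
    rw [(hf0V a d).1]
    exact hkV _ _
  refine hmp.congr fun v hv => ?_
  obtain ⟨a, d, rfl⟩ := mem_V_iff_kap c hv
  obtain ⟨a', d', h1, h2⟩ := hgf' a d
  have h3 : MulAut.conj m * y * MulAut.conj (um a 0 d) * (MulAut.conj m * y)⁻¹ =
      MulAut.conj m * (y * MulAut.conj (um a 0 d) * y⁻¹) * (MulAut.conj m)⁻¹ := by group
  rw [h3, (hf0V a d).2, ← map_inv, ← map_mul, ← map_mul, mat_act hm0 hm1 hm2] at h2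
  have h4 := conj_emb_inj (s := ⟨m.1 1 0 * ((ν : K) * ν' * σ d) + m.1 1 1 * ((ν : K) * σ a), 0,
    m.1 0 0 * ((ν : K) * ν' * σ d) + m.1 0 1 * ((ν : K) * σ a)⟩) (t := ⟨a', 0, d'⟩) h2
  rw [h1, ← h4, (hf0V a d).1, ex_apply _ (hkV _ _)]
  have h5 := hE ((ν : K) * σ a) ((ν : K) * ν' * σ d) (hkV _ _)
  exact h5.symm

/-- (s3a) -/
theorem mg_of_E [Finite S] (h : RD c θ Y) {e : MulAut V} (he : e ∈ b.E) : MG θ Y V (ex fun v : V => ((e v : V) : Ω)) := by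
  obtain ⟨g, hg⟩ := c.E1 e he
  have hkV : ∀ a d : K, kap c ⟨a, 0, d⟩ ∈ V := fun a d => (kap_V c _).2 rfl
  have hdet := g.2
  rw [Matrix.det_fin_two] at hdet
  let m : SL3 K := ⟨!![g.1 0 0, g.1 0 1, 0; g.1 1 0, g.1 1 1, 0; 0, 0, 1], by
    rw [Matrix.det_fin_three]
    simp only [Matrix.of_apply, Matrix.cons_val', Matrix.cons_val_zero, Matrix.cons_val_one, Matrix.cons_val_two,
      Matrix.cons_val_fin_one, Matrix.head_cons, Matrix.tail_cons, Matrix.empty_val', Matrix.head_fin_const]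
    linear_combination hdet⟩
  refine ⟨b.V_le, MulAut.conj m, Subgroup.mem_sup_left ⟨m, rfl⟩, fun v hv hvS => ?_⟩
  obtain ⟨a, d, rfl⟩ := mem_V_iff_kap c hv
  have h1 : ex (fun v : V => ((e v : V) : Ω)) (kap c ⟨a, 0, d⟩) =
      kap c ⟨g.1 1 0 * d + g.1 1 1 * a, 0, g.1 0 0 * d + g.1 0 1 * a⟩ := by
    rw [ex_apply _ hv]
    exact hg a d hv
  have h2 : ex (fun v : V => ((e v : V) : Ω)) (kap c ⟨a, 0, d⟩) ∈ S := by
    rw [h1]
    exact T_le b (kap_mem c _)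
  refine ⟨h2, ?_⟩
  have h3 : (⟨ex (fun v : V => ((e v : V) : Ω)) (kap c ⟨a, 0, d⟩), h2⟩ : S) =
      ⟨kap c ⟨g.1 1 0 * d + g.1 1 1 * a, 0, g.1 0 0 * d + g.1 0 1 * a⟩, T_le b (kap_mem c _)⟩ := Subtype.ext h1
  rw [h3, h.onT, h.onT, ← map_inv, ← map_mul, ← map_mul]
  congr 1
  exact (mat_act (m := m) rfl rfl rfl a d).symm

theorem card_cjV : Nat.card (cj x V) = Nat.card V :=
  (Nat.card_congr (V.equivMapOfInjective (MulAut.conj x).toMonoidHom (MulAut.conj x).injective).toEquiv).symm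

/-- automorphisms of `S` preserve `T` -/
theorem map_T [Finite S] (b : Big F K V T x) {D : FusionSystem S} {f : Ω → Ω} (hf : Mp D S f) :
    ∀ t ∈ T, f t ∈ T := by
  have tf := H124.SP.tf_of_big b
  have key : ∀ B : Subgroup Ω, B ≤ S → (∀ v ∈ B, v * v = 1) → Nat.card B = Nat.card V → ∀ v ∈ B, f v ∈ T := by
    intro B hBS hB2 hBc v hv
    obtain ⟨B', h1, h2, h3⟩ := hf.exists_image hBS
    have h4 : ∀ w ∈ B', w * w = 1 := by
      intro w hw
      obtain ⟨v, hv, rfl⟩ := (h1 w).1 hw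
      rw [← hf.mul (hBS hv) (hBS hv), hB2 v hv, hf.one]
    have h5 : f v ∈ B' := (h1 _).2 ⟨v, hv, rfl⟩
    rcases tf.eq_or h2 h4 (h3.trans hBc) with h | h
    · rw [h] at h5; exact V_le_T b h5
    · rw [h] at h5; exact cj_le_T b h5
  intro t ht
  obtain ⟨v, hv, w, hw, rfl⟩ := tf.exists_mul ht
  rw [hf.mul (b.V_le hv) (T_le b (cj_le_T b hw))]
  exact mul_mem (key V b.V_le (fun v hv => tf.el' v hv) rfl v hv)
    (key (cj x V) ((cj_le_T b).trans (T_le b)) (fun v hv => tf.el_W hv) card_cjV w hw)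

/-- Frattini (helper497) -/
def StFrat : Prop := ∀ {Ω : Type u} [Group Ω] {S : Subgroup Ω} [Finite S] {F : FusionSystem S} {K : Type} [Field K]
    [Fintype K] {V T : Subgroup Ω} {x : Ω} (b : Big F K V T x) {α : MulAut V} (_ : α ∈ F.autGroup V),
    ∃ e ∈ b.E, ∀ t ∈ T, ∃ t' ∈ T, ∀ v v' : V, (v' : Ω) = t * v * t⁻¹ →
      (((e * α) v' : V) : Ω) = t' * (((e * α) v : V) : Ω) * t'⁻¹

/-- **F is the fusion system of `GG Y`.** -/
theorem eq_GS [Finite S] (hG1 : StG1) (hG3 : StG3) (hFr : StFrat.{u}) (hEss : StEss.{u}) (hEssT : StEssT.{u})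
    (hS : IsPGroup 2 S) (hF : F.IsSaturated 2) (hess : ∀ R : Subgroup Ω, F.IsEssential 2 R → R ≤ T) (h : RD c θ Y)
    {D : FusionSystem S} (hD : D.IsSaturated 2) (hmp : ∀ P f, Mp D P f ↔ MG θ Y P f) : F = D := by
  have hfinV : Finite V := H802.finite_of_le b.V_le
  have hexE : ∀ e ∈ b.E, e ∈ D.autGroup V := fun e he =>
    (mp_iff_autGroup b.V_le e).2 ((hmp _ _).2 (mg_of_E h he))
  have hV : F.autGroup V = D.autGroup V := by
    apply le_antisymm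
    · intro α hα
      obtain ⟨e, he, h1⟩ := hFr b hα
      obtain ⟨f, hf, hfT, hfV⟩ := ext_T hS hF b (mul_mem (b.E_le he) hα) h1
      have h2 : Mp D T f := (hmp _ _).2 ⟨T_le b, h.to_g T f hf le_rfl hfT⟩
      have h3 : e * α ∈ D.autGroup V := (h2.res (V_le_T b)).mem_autGroup hfV
      have h4 := mul_mem (inv_mem (hexE e he)) h3
      rwa [inv_mul_cancel_left] at h4
    · intro α hα
      have h1 := (mp_iff_autGroup b.V_le α).1 hα
      refine (mp_iff_autGroup b.V_le α).2 (mp_of_mg hG3 h ((hmp _ _).1 h1) fun v hv => ?_)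
      rw [ex_apply _ hv]
      exact (α _).2
  have htop : F.autGroup S = D.autGroup S := by
    apply le_antisymm
    · intro α hα
      have h1 := (mp_iff_autGroup le_rfl α).1 hα
      exact (mp_iff_autGroup le_rfl α).2 ((hmp _ _).2 ⟨le_rfl, h.to_g S _ h1 (T_le b) (map_T b h1)⟩)
    · intro α hα
      have h1 := (mp_iff_autGroup le_rfl α).1 hα
      obtain ⟨-, g, hg, h2⟩ := (hmp _ _).1 h1
      exact (mp_iff_autGroup le_rfl α).2 (h.of_g S _ le_rfl (T_le b) (map_T b h1) g hg h2)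
  have hess' : ∀ R : Subgroup Ω, D.IsEssential 2 R → R ≤ T := by
    intro R hR
    by_contra hRT
    obtain ⟨-, -, -, -, -, -, α, hα, z, hz, hzT⟩ := hEss hS D hD K V T x (H124.SP.bigTransport b D hV) R hR hRT
    apply hzT
    have hRS : R ≤ S := hR.1.1
    have h1 := (hmp _ _).1 ((mp_iff_autGroup hRS α).1 hα)
    have h2 := closed hG1 h h1 z.2 (V_le_T b hz.1)
    rwa [ex_coe] at h2
  exact H124.SP.eq_of_big hEssT hS hF hD b hV hess hess' htop

/-- **[L]**, from the coordinates, the group side and the essential subgroups. -/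
theorem stL_of (hLC : StLC.{u}) (hG1 : StG1) (hG2 : StG2) (hG3 : StG3) (hG5 : StG5.{u}) (hFr : StFrat.{u})
    (hEss : StEss.{u}) (hEssT : StEssT.{u}) : StL.{u} := by
  intro Ω _ S _ hS F hF K _ _ V T x b hfix hess
  obtain ⟨c⟩ := hLC hS F hF K V T x b hfix
  obtain ⟨θ, Y, h⟩ := exists_RD hG2 hS hF c
  obtain ⟨G, hG, hfin, e, ιG, D, hreal, hsyl, hD, hmp⟩ := exists_GS hG1 hS h
  have hFD := eq_GS hG1 hG3 hFr hEss hEssT hS hF hess h hD hmp
  obtain ⟨h1, h2, h3, h4⟩ := hG5 Y h.gy e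
  exact ⟨G, hG, hfin, ιG, by rw [hFD]; exact hreal, hsyl,
    Or.inr (Or.inr (Or.inr (Or.inr (Or.inr ⟨K, inferInstance, inferInstance, Or.inl h1, h2, h3, h4⟩))))⟩

end Cfsg.Agent.H780.HL
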