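import Cfsg.Agent.H756.HM.Stmts
import Cfsg.Agent.H780.HL.SL3

/-!
# S5175 [L]: interface between the coordinates, the fusion side and the group side (helper780)
-/

set_option autoImplicit false

namespace Cfsg.Agent.H780.HL

open Cfsg Cfsg.FusionSystem Cfsg.Agent.H756.HM

universe u

/-! ### Coordinates (helper770) -/

/-- Coordinates on `T` in the case `D = 1`: `u a b c` multiplies like the matrix `!![1, b, c; 0, 1, a; 0, 0, 1]`, `V = {b = 0}`,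
`V^x = {a = 0}`, `E = SL₂(K)` on the vectors `(c, a)` of `V`, and `E^x = SL₂(K)` on the vectors `(c, b)` of `V^x`. -/
structure LC {Ω : Type*} [Group Ω] {S : Subgroup Ω} {F : FusionSystem S} {K : Type} [Field K] [Fintype K]
    {V T : Subgroup Ω} {x : Ω} (B : Big F K V T x) where
  u : K → K → K → Ω
  mem : ∀ a b c, u a b c ∈ T
  surj : ∀ t ∈ T, ∃ a b c, t = u a b c
  inj : ∀ a b c a' b' c', u a b c = u a' b' c' → a = a' ∧ b = b' ∧ c = c'
  mul : ∀ a b c a' b' c', u a b c * u a' b' c' = u (a + a') (b + b') (c + c' + b * a')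
  memV : ∀ a b c, u a b c ∈ V ↔ b = 0
  memVx : ∀ a b c, u a b c ∈ cj x V ↔ a = 0
  /-- every `e ∈ E` acts on `(c, a)` by a matrix of determinant one -/
  E1 : ∀ e ∈ B.E, ∃ g : Matrix.SpecialLinearGroup (Fin 2) K, ∀ (a c : K) (h : u a 0 c ∈ V),
    ((e ⟨u a 0 c, h⟩ : V) : Ω) = u (g.1 1 0 * c + g.1 1 1 * a) 0 (g.1 0 0 * c + g.1 0 1 * a)
  /-- and every matrix of determinant one occurs -/
  E2 : ∀ g : Matrix.SpecialLinearGroup (Fin 2) K, ∃ e ∈ B.E, ∀ (a c : K) (h : u a 0 c ∈ V),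
    ((e ⟨u a 0 c, h⟩ : V) : Ω) = u (g.1 1 0 * c + g.1 1 1 * a) 0 (g.1 0 0 * c + g.1 0 1 * a)
  /-- every `e^x`, `e ∈ E`, acts on `(c, b)` by a matrix of determinant one -/
  E3 : ∀ e ∈ B.E, ∃ g : Matrix.SpecialLinearGroup (Fin 2) K, ∀ (b c : K) (h : x⁻¹ * u 0 b c * x ∈ V),
    x * ((e ⟨x⁻¹ * u 0 b c * x, h⟩ : V) : Ω) * x⁻¹ = u 0 (g.1 1 0 * c + g.1 1 1 * b) (g.1 0 0 * c + g.1 0 1 * b)
  /-- and every matrix of determinant one occurs -/
  E4 : ∀ g : Matrix.SpecialLinearGroup (Fin 2) K, ∃ e ∈ B.E, ∀ (b c : K) (h : x⁻¹ * u 0 b c * x ∈ V),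
    x * ((e ⟨x⁻¹ * u 0 b c * x, h⟩ : V) : Ω) * x⁻¹ = u 0 (g.1 1 0 * c + g.1 1 1 * b) (g.1 0 0 * c + g.1 0 1 * b)

/-- the coordinates exist -/
def StLC : Prop :=
  ∀ {Ω : Type u} [Group Ω] {S : Subgroup Ω} [Finite S], IsPGroup 2 S →
    ∀ (F : FusionSystem S), F.IsSaturated 2 →
    ∀ (K : Type) [Field K] [Fintype K] (V T : Subgroup Ω) (x : Ω) (b : Big F K V T x),
    fixS V b.E = ⊥ → Nonempty (LC b)

/-! ### Group side (helper497) -/

/-- `Y` is a group of diagonal-field-graph automorphisms of `SL₃(K)` of order `2 · odd`, containing the inner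
automorphisms of the diagonal matrices, not contained in the group of diagonal-field automorphisms. -/
structure GY {K : Type} [Field K] [Fintype K] (Y : Subgroup (MulAut (SL3 K))) : Prop where
  q4 : 4 ≤ Fintype.card K
  char2 : ∃ n : ℕ, Fintype.card K = 2 ^ n
  le : Y ≤ DD K
  tor : ∀ w : Fin 3 → Kˣ, w 0 * w 1 * w 2 = 1 → dconj w ∈ Y
  card : ∃ m : ℕ, Odd m ∧ Nat.card Y = 2 * m
  nle : ¬ Y ≤ DF K

/-- the inner automorphisms of `SL₃(K)` -/
abbrev InnS (K : Type) [Field K] : Subgroup (MulAut (SL3 K)) := (MulAut.conj : SL3 K →* MulAut (SL3 K)).range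

/-- the group `PSL₃(K) Y` -/
abbrev GG {K : Type} [Field K] (Y : Subgroup (MulAut (SL3 K))) : Subgroup (MulAut (SL3 K)) := InnS K ⊔ Y

/-- G1: orders -/
def StG1 : Prop := ∀ {K : Type} [Field K] [Fintype K] (Y : Subgroup (MulAut (SL3 K))), GY Y →
  (∃ m : ℕ, Odd m ∧ Nat.card (GG Y) = 2 * Fintype.card K ^ 3 * m) ∧
  (∃ m : ℕ, Odd m ∧ Nat.card (InnS K) = Fintype.card K ^ 3 * m) ∧ Nat.card (Th K) = Fintype.card K ^ 3

/-- G2: the normalizer of the unitriangular group in `GG Y` -/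
def StG2 : Prop := ∀ {K : Type} [Field K] [Fintype K] (Y : Subgroup (MulAut (SL3 K))), GY Y →
  ∀ g ∈ GG Y, (∀ t ∈ Th K, g * t * g⁻¹ ∈ Th K) → ∃ t ∈ Th K, ∃ y ∈ Y, g = t * y

/-- G3: the elements of `GG Y` normalizing `V = {um a 0 c}` -/
def StG3 : Prop := ∀ {K : Type} [Field K] [Fintype K] (Y : Subgroup (MulAut (SL3 K))), GY Y →
  ∀ g ∈ GG Y, (∀ a c : K, ∃ a' c' : K, g * MulAut.conj (um a 0 c) * g⁻¹ = MulAut.conj (um a' 0 c')) →
    ∃ m : SL3 K, m.1 2 0 = 0 ∧ m.1 2 1 = 0 ∧ m.1 2 2 = 1 ∧ ∃ y ∈ Y, y ∈ DF K ∧ g = MulAut.conj m * y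

/-- G5: the structure of `G ≅ GG Y` -/
def StG5 : Prop := ∀ {K : Type} [Field K] [Fintype K] (Y : Subgroup (MulAut (SL3 K))), GY Y →
  ∀ {G : Type u} [Group G] (_ : G ≃* ↥(GG Y)),
    Nonempty (↥(generalizedFittingSubgroup G) ≃* Matrix.ProjectiveSpecialLinearGroup (Fin 3) K) ∧
    generalizedFittingSubgroup G ≤ pResidual 2 G ∧
    Odd ((generalizedFittingSubgroup G).subgroupOf (pResidual 2 G)).index ∧
    (pResidual 2 G).index = 2

end Cfsg.Agent.H780.HL
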