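import Cfsg.Agent.H780.HL.HsT
import Cfsg.Agent.H780.HL.Defs
import Cfsg.Agent.H752.Mp
import Cfsg.Agent.H802.FusNorm

/-!
# S5175 [L]: the coordinates of `T` and the maps of `F` on `T` (helper780)
-/

set_option autoImplicit false
set_option linter.unusedSectionVars false

namespace Cfsg.Agent.H780.HL

open Cfsg Cfsg.FusionSystem Cfsg.Agent.H756.HM Cfsg.Agent.H752 Hs

universe u

variable {Ω : Type u} [Group Ω] {S : Subgroup Ω} {F : FusionSystem S} {K : Type} [Field K] [Fintype K]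
  {V T : Subgroup Ω} {x : Ω}

theorem mem_cj {v : Ω} : v ∈ cj x V ↔ x⁻¹ * v * x ∈ V := by
  constructor
  · rintro ⟨w, hw, rfl⟩
    have : x⁻¹ * (MulAut.conj x).toMonoidHom w * x = w := by
      show x⁻¹ * (x * w * x⁻¹) * x = w
      group
    rwa [this]
  · intro h
    exact ⟨_, h, by show x * (x⁻¹ * v * x) * x⁻¹ = v; group⟩

theorem T_le (b : Big F K V T x) : T ≤ S := by rw [← b.nor]; exact inf_le_left

theorem V_le_T (b : Big F K V T x) : V ≤ T := by
  rw [← b.nor]; exact le_inf b.V_le Subgroup.le_normalizer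

theorem xT (b : Big F K V T x) {t : Ω} (ht : t ∈ T) : x * t * x⁻¹ ∈ T :=
  (Subgroup.mem_normalizer_iff.1 b.x_nor t).1 ht

theorem xT' (b : Big F K V T x) {t : Ω} (ht : t ∈ T) : x⁻¹ * t * x ∈ T := by
  refine (Subgroup.mem_normalizer_iff.1 b.x_nor _).2 ?_
  have : x * (x⁻¹ * t * x) * x⁻¹ = t := by group
  rwa [this]

theorem cj_le_T (b : Big F K V T x) : cj x V ≤ T := by
  intro v hv
  have := xT b (V_le_T b (mem_cj.1 hv))
  have e : x * (x⁻¹ * v * x) * x⁻¹ = v := by group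
  rwa [e] at this

theorem S_nor (b : Big F K V T x) {s t : Ω} (hs : s ∈ S) (ht : t ∈ T) : s * t * s⁻¹ ∈ T := by
  have h1 : (T.subgroupOf S).index = 2 := b.S_idx
  have h2 := Subgroup.normal_of_index_eq_two h1
  have := h2.conj_mem ⟨t, T_le b ht⟩ ht ⟨s, hs⟩
  exact this

theorem normalizerIn_T (b : Big F K V T x) : normalizerIn S T = S := by
  refine le_antisymm inf_le_left (le_inf le_rfl fun s hs => ?_)
  rw [Subgroup.mem_normalizer_iff]
  intro t
  constructor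
  · exact S_nor b hs
  · intro h
    have := S_nor b (S.inv_mem hs) h
    have e : s⁻¹ * (s * t * s⁻¹) * s⁻¹⁻¹ = t := by group
    rwa [e] at this

theorem S_dich (b : Big F K V T x) {s : Ω} (hs : s ∈ S) : s ∈ T ∨ x⁻¹ * s ∈ T := by
  have h1 : (T.subgroupOf S).index = 2 := b.S_idx
  by_cases h : s ∈ T
  · exact Or.inl h
  · right
    have h2 := (Subgroup.mul_mem_iff_of_index_two h1 (a := ⟨x⁻¹, S.inv_mem b.x_mem⟩) (b := ⟨s, hs⟩)).2 (by
      constructor
      · intro h3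
        exact (b.x_not ((Subgroup.inv_mem_iff T).1 h3)).elim
      · intro h3
        exact (h h3).elim)
    exact h2

theorem two_zero (b : Big F K V T x) : (2 : K) = 0 := by
  have h := FiniteField.cast_card_eq_zero K
  rw [b.hK, Nat.cast_pow] at h
  exact_mod_cast pow_eq_zero_iff (n := b.n) (by have := b.hn; omega) |>.1 h

theorem x_V (b : Big F K V T x) : cj x V ≠ V := by
  intro h
  apply b.x_not
  rw [← b.nor]
  refine ⟨b.x_mem, Subgroup.mem_normalizer_iff.2 fun v => ?_⟩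
  constructor
  · intro hv
    rw [← h]
    exact ⟨v, hv, rfl⟩
  · intro hv
    rw [← h, mem_cj] at hv
    have e : x⁻¹ * (x * v * x⁻¹) * x = v := by group
    rwa [e] at hv

section Kap

variable {b : Big F K V T x} (c : LC b)

/-- the parametrization of `T` by the Heisenberg group -/
def kap : Hs K →* Ω where
  toFun t := c.u t.a t.b t.c
  map_one' := by
    have h := c.mul 0 0 0 0 0 0
    simp only [add_zero, mul_zero] at h
    exact mul_eq_left.1 h
  map_mul' s t := (c.mul _ _ _ _ _ _).symm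

theorem kap_apply (t : Hs K) : kap c t = c.u t.a t.b t.c := rfl

theorem kap_inj : Function.Injective (kap c) := by
  intro s t h
  obtain ⟨h1, h2, h3⟩ := c.inj _ _ _ _ _ _ h
  exact Hs.ext h1 h2 h3

theorem kap_mem (t : Hs K) : kap c t ∈ T := c.mem _ _ _

theorem kap_surj {t : Ω} (ht : t ∈ T) : ∃ s, kap c s = t := by
  obtain ⟨a, b', c', h⟩ := c.surj t ht
  exact ⟨⟨a, b', c'⟩, h.symm⟩

theorem kap_V (t : Hs K) : kap c t ∈ V ↔ t.b = 0 := c.memV _ _ _

theorem kap_Vx (t : Hs K) : kap c t ∈ cj x V ↔ t.a = 0 := c.memVx _ _ _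

/-- the Heisenberg group is `T` -/
noncomputable def kapE : Hs K ≃* T :=
  MulEquiv.ofBijective ((kap c).codRestrict T (kap_mem c))
    ⟨fun s t h => kap_inj c (congrArg Subtype.val h), fun t => by
      obtain ⟨s, hs⟩ := kap_surj c t.2
      exact ⟨s, Subtype.ext hs⟩⟩

theorem kapE_apply (t : Hs K) : ((kapE c t : T) : Ω) = kap c t := rfl

theorem kap_symm (t : T) : kap c ((kapE c).symm t) = t := by
  rw [← kapE_apply, MulEquiv.apply_symm_apply]

/-- a map of `F` on `T` with values in `T` is an automorphism of the Heisenberg group -/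
theorem exists_alpha [Finite S] {f : Ω → Ω} (hf : Mp F T f) (hfT : ∀ t ∈ T, f t ∈ T) :
    ∃ α : MulAut (Hs K), ∀ t, f (kap c t) = kap c (α t) := by
  have : Finite T := H802.finite_of_le (T_le b)
  obtain ⟨α, -, hα⟩ := hf.exists_aut hfT
  refine ⟨((kapE c).trans α).trans (kapE c).symm, fun t => ?_⟩
  have h1 : (((kapE c).trans α).trans (kapE c).symm) t = (kapE c).symm (α (kapE c t)) := rfl
  rw [h1, kap_symm, hα _ (kap_mem c t)]
  rfl

/-- the normality of `E`, for functions -/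
theorem n1 [Finite S] (b : Big F K V T x) {f : Ω → Ω} (hf : Mp F V f) (hfV : ∀ v ∈ V, f v ∈ V) {e : MulAut V}
    (he : e ∈ b.E) : ∃ e' ∈ b.E, ∀ (v : Ω) (hv : v ∈ V) (hfv : f v ∈ V),
      f ((e ⟨v, hv⟩ : V) : Ω) = ((e' ⟨f v, hfv⟩ : V) : Ω) := by
  have : Finite V := H802.finite_of_le b.V_le
  obtain ⟨α, hα, h1⟩ := hf.exists_aut hfV
  refine ⟨α * e * α⁻¹, b.E_nor α hα e he, fun v hv hfv => ?_⟩
  rw [h1 _ (e ⟨v, hv⟩).2]
  have h2 : (⟨f v, hfv⟩ : V) = α ⟨v, hv⟩ := Subtype.ext (h1 v hv)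
  rw [h2, MulAut.mul_apply, MulAut.mul_apply, MulAut.inv_apply_self]

/-- the two elements of the charts -/
def yy (x : Ω) (i : Bool) : Ω := if i then x else 1

/-- the two charts of `V` -/
def ww (i : Bool) (a d : K) : Ω := if i then x⁻¹ * c.u 0 a d * x else c.u a 0 d

theorem ww_mem (i : Bool) (a d : K) : ww c i a d ∈ V := by
  unfold ww
  split_ifs
  · exact mem_cj.1 ((c.memVx _ _ _).2 rfl)
  · exact (c.memV _ _ _).2 rfl

theorem ww_inj (i : Bool) {a d a' d' : K} (h : ww c i a d = ww c i a' d') : a = a' ∧ d = d' := by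
  unfold ww at h
  split_ifs at h
  · have := c.inj _ _ _ _ _ _ (mul_left_cancel (mul_right_cancel h))
    exact ⟨this.2.1, this.2.2⟩
  · have := c.inj _ _ _ _ _ _ h
    exact ⟨this.1, this.2.2⟩

theorem ee (i : Bool) {e : MulAut V} (he : e ∈ b.E) : ∃ g : Matrix.SpecialLinearGroup (Fin 2) K, ∀ (a d : K)
    (h : ww c i a d ∈ V), ((e ⟨ww c i a d, h⟩ : V) : Ω) = ww c i (g.1 1 0 * d + g.1 1 1 * a) (g.1 0 0 * d + g.1 0 1 * a) := by
  cases i
  · obtain ⟨g, hg⟩ := c.E1 e he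
    exact ⟨g, fun a d h => hg a d h⟩
  · obtain ⟨g, hg⟩ := c.E3 e he
    refine ⟨g, fun a d h => ?_⟩
    have := hg a d h
    show _ = x⁻¹ * c.u 0 (g.1 1 0 * d + g.1 1 1 * a) (g.1 0 0 * d + g.1 0 1 * a) * x
    rw [← this]
    have e1 : ((e ⟨ww c true a d, h⟩ : V) : Ω) = ((e ⟨x⁻¹ * c.u 0 a d * x, h⟩ : V) : Ω) := rfl
    rw [e1]
    group

theorem ee' (i : Bool) (g : Matrix.SpecialLinearGroup (Fin 2) K) : ∃ e ∈ b.E, ∀ (a d : K)
    (h : ww c i a d ∈ V), ((e ⟨ww c i a d, h⟩ : V) : Ω) = ww c i (g.1 1 0 * d + g.1 1 1 * a) (g.1 0 0 * d + g.1 0 1 * a) := by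
  cases i
  · obtain ⟨e, he, hg⟩ := c.E2 g
    exact ⟨e, he, fun a d h => hg a d h⟩
  · obtain ⟨e, he, hg⟩ := c.E4 g
    refine ⟨e, he, fun a d h => ?_⟩
    have := hg a d h
    show _ = x⁻¹ * c.u 0 (g.1 1 0 * d + g.1 1 1 * a) (g.1 0 0 * d + g.1 0 1 * a) * x
    rw [← this]
    have e1 : ((e ⟨ww c true a d, h⟩ : V) : Ω) = ((e ⟨x⁻¹ * c.u 0 a d * x, h⟩ : V) : Ω) := rfl
    rw [e1]
    group

/-- the linearity of the image of the Weyl matrix, in charts -/
theorem lin_chart [Finite S] (i j : Bool) {f : Ω → Ω} (hf : Mp F V f) (hfV : ∀ v ∈ V, f v ∈ V) (A B : K → K → K)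
    (hA : ∀ a d, f (ww c i a d) = ww c j (A a d) (B a d)) :
    ∃ p q r s : K, ∀ a d, A (-d) a = p * B a d + q * A a d ∧ B (-d) a = r * B a d + s * A a d := by
  obtain ⟨e, he, hE⟩ := ee' c i ⟨!![0, 1; -1, 0], by simp [Matrix.det_fin_two]⟩
  obtain ⟨e', he', h2⟩ := n1 b hf hfV he
  obtain ⟨g, hg⟩ := ee c j he'
  refine ⟨g.1 1 0, g.1 1 1, g.1 0 0, g.1 0 1, fun a d => ?_⟩
  have e1 := hE a d (ww_mem c i a d)
  have e2 := h2 _ (ww_mem c i a d) (hfV _ (ww_mem c i a d))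
  have e3 : ww c i ((-1) * d + 0 * a) (0 * d + 1 * a) = ww c i (-d) a := by congr 1 <;> ring
  have e4 : ((e ⟨ww c i a d, ww_mem c i a d⟩ : V) : Ω) = ww c i (-d) a := by
    rw [e1, ← e3]; rfl
  rw [e4, hA] at e2
  have e5 : (⟨f (ww c i a d), hfV _ (ww_mem c i a d)⟩ : V) = ⟨ww c j (A a d) (B a d), ww_mem c j _ _⟩ :=
    Subtype.ext (hA a d)
  rw [e5, hg] at e2
  exact ww_inj c j e2

/-- the maps of `F` on `T`, in coordinates, preserving `V` -/
theorem form_V [Finite S] {f : Ω → Ω} (hf : Mp F T f) {α : MulAut (Hs K)} (hα : ∀ t, f (kap c t) = kap c (α t))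
    (h1 : ∀ t : Hs K, t.b = 0 → (α t).b = 0) (h2 : ∀ t : Hs K, t.a = 0 → (α t).a = 0) :
    ∃ (t : Hs K) (ν ν' : Kˣ) (σ : K ≃+* K), α = MulAut.conj t * del ν ν' σ := by
  have hVk : ∀ v ∈ V, ∃ s : Hs K, s.b = 0 ∧ kap c s = v := by
    intro v hv
    obtain ⟨s, rfl⟩ := kap_surj c (V_le_T b hv)
    exact ⟨s, (kap_V c s).1 hv, rfl⟩
  have hVxk : ∀ v ∈ V, ∃ s : Hs K, s.a = 0 ∧ kap c s = x * v * x⁻¹ := by
    intro v hv
    obtain ⟨s, hs⟩ := kap_surj c (xT b (V_le_T b hv))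
    refine ⟨s, (kap_Vx c s).1 ?_, hs⟩
    rw [hs]
    exact ⟨v, hv, rfl⟩
  refine aut_form α h1 h2 ?_ ?_
  · obtain ⟨p, q, r, s, h⟩ := lin_chart c false false (hf.res (V_le_T b)) (by
      intro v hv
      obtain ⟨s, hs, rfl⟩ := hVk v hv
      rw [hα, kap_V]
      exact h1 s hs) (fun a d => (α ⟨a, 0, d⟩).a) (fun a d => (α ⟨a, 0, d⟩).c) (by
      intro a d
      show f (kap c ⟨a, 0, d⟩) = c.u _ 0 _
      rw [hα, kap_apply, h1 _ rfl])
    refine ⟨p, q, r, s, fun a d => ?_⟩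
    ext
    · exact (h a d).1
    · exact h1 _ rfl
    · exact (h a d).2
  · have hm : Mp F V (fun v => x⁻¹ * f (x * v * x⁻¹) * x) := by
      have e1 := (mp_conj F b.V_le b.x_mem).comp (hf.res le_rfl) (fun v hv => xT b (V_le_T b hv))
      have e2 := e1.comp (mp_conj F le_rfl (S.inv_mem b.x_mem)) (fun v hv => e1.mem hv)
      refine e2.congr fun v _ => ?_
      simp
    obtain ⟨p, q, r, s, h⟩ := lin_chart c true true hm (by
      intro v hv
      obtain ⟨s, hs, h3⟩ := hVxk v hv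
      show x⁻¹ * f (x * v * x⁻¹) * x ∈ V
      rw [← mem_cj, ← h3, hα, kap_Vx]
      exact h2 s hs) (fun a d => (α ⟨0, a, d⟩).b) (fun a d => (α ⟨0, a, d⟩).c) (by
      intro a d
      show x⁻¹ * f (x * (x⁻¹ * c.u 0 a d * x) * x⁻¹) * x = x⁻¹ * c.u 0 _ _ * x
      have e3 : x * (x⁻¹ * c.u 0 a d * x) * x⁻¹ = kap c ⟨0, a, d⟩ := by rw [kap_apply]; group
      rw [e3, hα, kap_apply, h2 _ rfl])
    refine ⟨p, q, r, s, fun a d => ?_⟩
    ext
    · exact h2 _ rfl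
    · exact (h a d).1
    · exact (h a d).2

/-- the maps of `F` on `T`, in coordinates, exchanging `V` and `V^x` -/
theorem form_Vx [Finite S] {f : Ω → Ω} (hf : Mp F T f) {α : MulAut (Hs K)} (hα : ∀ t, f (kap c t) = kap c (α t))
    (h1 : ∀ t : Hs K, t.b = 0 → (α t).a = 0) (h2 : ∀ t : Hs K, t.a = 0 → (α t).b = 0) :
    ∃ (t : Hs K) (ν ν' : Kˣ) (σ : K ≃+* K), α = MulAut.conj t * (del ν ν' σ * gam) := by
  have hVk : ∀ v ∈ V, ∃ s : Hs K, s.b = 0 ∧ kap c s = v := by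
    intro v hv
    obtain ⟨s, rfl⟩ := kap_surj c (V_le_T b hv)
    exact ⟨s, (kap_V c s).1 hv, rfl⟩
  have hVxk : ∀ v ∈ V, ∃ s : Hs K, s.a = 0 ∧ kap c s = x * v * x⁻¹ := by
    intro v hv
    obtain ⟨s, hs⟩ := kap_surj c (xT b (V_le_T b hv))
    refine ⟨s, (kap_Vx c s).1 ?_, hs⟩
    rw [hs]
    exact ⟨v, hv, rfl⟩
  have hga : ∀ t : Hs K, ((gam * α : MulAut (Hs K)) t).a = -(α t).b := fun t => rfl
  have hgb : ∀ t : Hs K, ((gam * α : MulAut (Hs K)) t).b = -(α t).a := fun t => rfl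
  have hgc : ∀ t : Hs K, ((gam * α : MulAut (Hs K)) t).c = -(α t).c + (α t).b * (α t).a := fun t => rfl
  obtain ⟨t, ν, ν', σ, h⟩ := aut_form (gam * α) (fun t ht => by rw [hgb, h1 t ht, neg_zero])
    (fun t ht => by rw [hga, h2 t ht, neg_zero]) (by
    have hm : Mp F V (fun v => x⁻¹ * f v * x) := by
      have e2 := (hf.res (V_le_T b)).comp (mp_conj F le_rfl (S.inv_mem b.x_mem)) (fun v hv => hf.mem (V_le_T b hv))
      refine e2.congr fun v _ => ?_
      simp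
    obtain ⟨p, q, r, s, h⟩ := lin_chart c false true hm (by
      intro v hv
      obtain ⟨s, hs, rfl⟩ := hVk v hv
      rw [← mem_cj, hα, kap_Vx]
      exact h1 s hs) (fun a d => (α ⟨a, 0, d⟩).b) (fun a d => (α ⟨a, 0, d⟩).c) (by
      intro a d
      show x⁻¹ * f (kap c ⟨a, 0, d⟩) * x = x⁻¹ * c.u 0 _ _ * x
      rw [hα, kap_apply, h1 _ rfl])
    refine ⟨p, q, r, s, fun a d => ?_⟩
    have h3 : ∀ a d : K, (α ⟨a, 0, d⟩).a = 0 := fun a d => h1 _ rfl
    have h4 := h a d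
    ext
    · simp only [hga, hgc, h3, mul_zero, add_zero]
      rw [h4.1]; ring
    · simp only [hgb, h3, neg_zero]
    · simp only [hga, hgc, h3, mul_zero, add_zero]
      rw [h4.2]; ring) (by
    have hm : Mp F V (fun v => f (x * v * x⁻¹)) :=
      (mp_conj F b.V_le b.x_mem).comp (hf.res le_rfl) (fun v hv => xT b (V_le_T b hv))
    obtain ⟨p, q, r, s, h⟩ := lin_chart c true false hm (by
      intro v hv
      obtain ⟨s, hs, h3⟩ := hVxk v hv
      show f (x * v * x⁻¹) ∈ V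
      rw [← h3, hα, kap_V]
      exact h2 s hs) (fun a d => (α ⟨0, a, d⟩).a) (fun a d => (α ⟨0, a, d⟩).c) (by
      intro a d
      show f (x * (x⁻¹ * c.u 0 a d * x) * x⁻¹) = c.u _ 0 _
      have e3 : x * (x⁻¹ * c.u 0 a d * x) * x⁻¹ = kap c ⟨0, a, d⟩ := by rw [kap_apply]; group
      rw [e3, hα, kap_apply, h2 _ rfl])
    refine ⟨p, q, r, s, fun a d => ?_⟩
    have h3 : ∀ a d : K, (α ⟨0, a, d⟩).b = 0 := fun a d => h2 _ rfl
    have h4 := h a d
    ext
    · simp only [hga, h3, neg_zero]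
    · simp only [hgb, hgc, h3, zero_mul, add_zero]
      rw [h4.1]; ring
    · simp only [hgb, hgc, h3, zero_mul, add_zero]
      rw [h4.2]; ring)
  refine ⟨gam t, ν', ν, σ, ?_⟩
  have h5 : α = gam * (gam * α) := by rw [← mul_assoc, gam_mul_gam, one_mul]
  rw [h5, h, ← mul_assoc, Hs.mul_conj, mul_assoc, gam_mul_del]

end Kap

end Cfsg.Agent.H780.HL
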