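import Cfsg.Agent.H780.HL.Split
import Cfsg.Agent.H780.HL.Defs

/-!
# S5175 [L]: embedding of the model of `N_F(T)` in `Aut(SL₃(K))` (helper780)
-/

set_option autoImplicit false

namespace Cfsg.Agent.H780.HL

open Hs

/-- A total, functional, multiplicative relation is a homomorphism. -/
theorem exists_hom_of_rel {G H : Type*} [Group G] [Group H] (R : G → H → Prop) (tot : ∀ g, ∃ h, R g h)
    (fn : ∀ g h h', R g h → R g h' → h = h') (mul : ∀ g h g' h', R g h → R g' h' → R (g * g') (h * h')) :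
    ∃ φ : G →* H, ∀ g h, R g h → φ g = h := by
  choose f hf using tot
  refine ⟨MonoidHom.mk' f fun g g' => fn _ _ _ (hf _) (mul _ _ _ _ (hf g) (hf g')), fun g h hr => fn _ _ _ (hf g) hr⟩

variable {K : Type} [Field K]

theorem exists_ext {δ : MulAut (Hs K)} (h : δ ∈ DDh K) : ∃ ε ∈ DD K, ∀ t, ε (emb t) = emb (δ t) := by
  obtain ⟨ν, ν', σ, rfl | rfl⟩ := h
  · exact ⟨dg ν ν' σ, ⟨_, _, _, Or.inl rfl⟩, dg_emb ν ν' σ⟩
  · exact ⟨dg ν ν' σ * gr, ⟨_, _, _, Or.inr rfl⟩, fun t => by rw [MulAut.mul_apply, gr_emb, dg_emb]; rfl⟩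

theorem gam_gam (t : Hs K) : gam (gam t) = t := by
  rw [← MulAut.mul_apply, gam_mul_gam]; rfl

theorem ext_unique {ε ε' : MulAut (SL3 K)} (h1 : ε ∈ DD K) (h2 : ε' ∈ DD K) (h : ∀ t, ε (emb t) = ε' (emb t)) : ε = ε' := by
  have key : ∀ (ν ν' μ μ' : Kˣ) (σ τ : K ≃+* K), (∀ t, dg ν ν' σ (emb t) = dg μ μ' τ (emb t)) → dg ν ν' σ = dg μ μ' τ := by
    intro ν ν' μ μ' σ τ h
    have e : MulAut.conj (1 : Hs K) * del ν ν' σ = del μ μ' τ := by
      rw [map_one, one_mul]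
      ext1 t
      apply emb_injective
      rw [← dg_emb, ← dg_emb, h]
    obtain ⟨-, -, rfl, rfl, rfl⟩ := conj_del_inj e
    rfl
  have key2 : ∀ (ν ν' μ μ' : Kˣ) (σ τ : K ≃+* K), (∀ t, dg ν ν' σ (emb t) = (dg μ μ' τ * gr : MulAut (SL3 K)) (emb t)) → False := by
    intro ν ν' μ μ' σ τ h
    have e := h ⟨1, 0, 0⟩
    rw [MulAut.mul_apply, gr_emb, dg_emb, dg_emb] at e
    have e2 := congrArg Hs.a (emb_injective e)
    simp [del_apply, gam_apply] at e2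
  obtain ⟨ν, ν', σ, rfl | rfl⟩ := h1
  · obtain ⟨μ, μ', τ, rfl | rfl⟩ := h2
    · exact key _ _ _ _ _ _ h
    · exact (key2 _ _ _ _ _ _ h).elim
  · obtain ⟨μ, μ', τ, rfl | rfl⟩ := h2
    · exact (key2 _ _ _ _ _ _ fun t => (h t).symm).elim
    · have e0 : dg ν ν' σ = dg μ μ' τ := by
        refine key _ _ _ _ _ _ fun t => ?_
        have e := h (gam t)
        rw [MulAut.mul_apply, MulAut.mul_apply, gr_emb, gam_gam] at e
        exact e
      rw [e0]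

/-- only the trivial unitriangular matrix is central -/
theorem conj_um {t : Hs K} (h : MulAut.conj (emb t) = 1) : t = 1 := by
  let g : SL3 K := ⟨!![1, 0, 0; 0, 1, 0; 1, 0, 1], by simp [Matrix.det_fin_three]⟩
  have h1 : emb t * g = g * emb t := by
    have := congrArg (fun α : MulAut (SL3 K) => α g) h
    simp only [MulAut.conj_apply, MulAut.one_apply] at this
    exact mul_inv_eq_iff_eq_mul.1 this
  have h2 := fun i j => congrFun (congrFun (congrArg Subtype.val h1) i) j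
  have e1 := h2 0 0
  have e2 := h2 1 0
  have e3 := h2 2 1
  rw [val_mul_apply, val_mul_apply] at e1 e2 e3
  simp [g, emb_apply, um] at e1 e2 e3
  exact Hs.ext e2 e3.symm e1

namespace SD

variable {L : Type*} [Group L] (d : SD K L)

theorem exists_Phi : ∃ Φ : L →* MulAut (SL3 K), (∀ t, Φ (d.j t) = MulAut.conj (emb t)) ∧ (∀ y ∈ d.Y, Φ y ∈ DD K) ∧
    (∀ l s, Φ l (emb s) = emb (d.act l s)) ∧ Function.Injective Φ := by
  obtain ⟨R, hR⟩ : ∃ R : L → MulAut (SL3 K) → Prop, R = fun l α => ∃ t, ∃ y ∈ d.Y, ∃ ε ∈ DD K,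
      (∀ s, ε (emb s) = emb (d.act y s)) ∧ l = d.j t * y ∧ α = MulAut.conj (emb t) * ε := ⟨_, rfl⟩
  have tot : ∀ l, ∃ α, R l α := by
    intro l
    obtain ⟨t, y, hy, rfl⟩ := d.exists_eq l
    obtain ⟨ε, hε1, hε2⟩ := exists_ext (d.act_Y hy)
    rw [hR]
    exact ⟨_, t, y, hy, ε, hε1, hε2, rfl, rfl⟩
  have fn : ∀ l α α', R l α → R l α' → α = α' := by
    rw [hR]
    rintro l _ _ ⟨t, y, hy, ε, hε1, hε2, h1, rfl⟩ ⟨t', y', hy', ε', hε1', hε2', h1', rfl⟩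
    have h2 : d.j (t'⁻¹ * t) = y' * y⁻¹ := by
      rw [map_mul, map_inv, inv_mul_eq_iff_eq_mul, ← mul_assoc, ← h1', h1, mul_inv_cancel_right]
    have h3 : t'⁻¹ * t = 1 := d.j_mem_Y (by rw [h2]; exact mul_mem hy' (inv_mem hy))
    have h4 : t' = t := inv_mul_eq_one.1 h3
    subst h4
    have h5 : y = y' := by
      rw [h1] at h1'
      exact mul_left_cancel h1'
    subst h5
    rw [ext_unique hε1 hε1' fun s => by rw [hε2, hε2']]
  have mul : ∀ l α l' α', R l α → R l' α' → R (l * l') (α * α') := by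
    rw [hR]
    rintro l _ l' _ ⟨t, y, hy, ε, hε1, hε2, h1, rfl⟩ ⟨t', y', hy', ε', hε1', hε2', h1', rfl⟩
    refine ⟨t * d.act y t', y * y', mul_mem hy hy', ε * ε', mul_mem hε1 hε1', fun s => ?_, ?_, ?_⟩
    · rw [MulAut.mul_apply, hε2', hε2, map_mul]; rfl
    · rw [h1, h1', map_mul, ← d.hj]; group
    · rw [map_mul, map_mul, ← hε2]
      rw [mul_assoc, mul_assoc, ← mul_assoc ε, Hs.mul_conj, mul_assoc]
  obtain ⟨Φ, hΦ⟩ := exists_hom_of_rel R tot fn mul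
  rw [hR] at hΦ
  have h1 : ∀ t, Φ (d.j t) = MulAut.conj (emb t) := fun t =>
    hΦ _ _ ⟨t, 1, one_mem _, 1, one_mem _, fun s => by rw [map_one]; rfl, by rw [mul_one], by rw [mul_one]⟩
  have h2 : ∀ y ∈ d.Y, Φ y ∈ DD K ∧ ∀ s, Φ y (emb s) = emb (d.act y s) := by
    intro y hy
    obtain ⟨ε, hε1, hε2⟩ := exists_ext (d.act_Y hy)
    have := hΦ y ε ⟨1, y, hy, ε, hε1, hε2, by rw [map_one, one_mul], by rw [map_one, map_one, one_mul]⟩
    rw [this]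
    exact ⟨hε1, hε2⟩
  have h3 : ∀ l s, Φ l (emb s) = emb (d.act l s) := by
    intro l s
    obtain ⟨t, y, hy, rfl⟩ := d.exists_eq l
    rw [map_mul, MulAut.mul_apply, (h2 y hy).2, h1, map_mul, MulAut.mul_apply, d.act_j, MulAut.conj_apply,
      MulAut.conj_apply, map_mul, map_mul, map_inv]
  refine ⟨Φ, h1, fun y hy => (h2 y hy).1, h3, ?_⟩
  rw [injective_iff_map_eq_one]
  intro l hl
  have h4 : d.act l = 1 := by
    ext1 s
    apply emb_injective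
    rw [← h3, hl]; rfl
  obtain ⟨t, rfl⟩ := d.ker l h4
  rw [h1] at hl
  rw [conj_um hl, map_one]

theorem card_L [Finite K] : Nat.card L = Nat.card K ^ 3 * Nat.card d.Y := by
  have e1 : Nat.card (Hs K) = Nat.card K ^ 3 := by
    have e : Hs K ≃ K × K × K :=
      { toFun := fun t => (t.a, t.b, t.c)
        invFun := fun v => ⟨v.1, v.2.1, v.2.2⟩
        left_inv := fun t => rfl
        right_inv := fun v => rfl }
    rw [Nat.card_congr e, Nat.card_prod, Nat.card_prod]; ring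
  rw [← e1, ← Nat.card_prod]
  refine (Nat.card_congr (Equiv.ofBijective (fun p : Hs K × d.Y => d.j p.1 * (p.2 : L)) ⟨?_, ?_⟩)).symm
  · rintro ⟨t, y⟩ ⟨t', y'⟩ h
    simp only at h
    have h2 : d.j (t'⁻¹ * t) = y' * (y : L)⁻¹ := by
      rw [map_mul, map_inv, inv_mul_eq_iff_eq_mul, ← mul_assoc, ← h, mul_inv_cancel_right]
    have h3 : t'⁻¹ * t = 1 := d.j_mem_Y (by rw [h2]; exact mul_mem y'.2 (inv_mem y.2))
    have h4 : t' = t := inv_mul_eq_one.1 h3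
    subst h4
    rw [Prod.mk.injEq]
    exact ⟨rfl, Subtype.ext (mul_left_cancel h)⟩
  · intro l
    obtain ⟨t, y, hy, rfl⟩ := d.exists_eq l
    exact ⟨⟨t, y, hy⟩, rfl⟩

theorem dconj_mem [Finite K] {Φ : L →* MulAut (SL3 K)} (hΦ1 : ∀ y ∈ d.Y, Φ y ∈ DD K)
    (hΦ2 : ∀ l s, Φ l (emb s) = emb (d.act l s)) {ν ν' : Kˣ} {l : L} {t : Hs K} (hl : d.act l = MulAut.conj t * dt ν ν') :
    dg ν ν' (RingEquiv.refl K) ∈ d.Y.map Φ := by
  have h1 : d.act (d.j t⁻¹ * l) = dt ν ν' := by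
    rw [map_mul, d.act_j, hl, map_inv, inv_mul_cancel_left]
  obtain ⟨z, hza, hzb, hz⟩ := d.exists_z d.act_h h1 d.hνν'
  have h2 : d.act (d.j z * (d.j t⁻¹ * l)) = dt ν ν' := by
    rw [map_mul, d.act_j, conj_central hza hzb, one_mul, h1]
  have h3 : d.j z * (d.j t⁻¹ * l) ∈ d.Y := d.mem_Y_of_H1 ⟨⟨_, _, h2⟩, hz⟩
  refine ⟨_, h3, ?_⟩
  refine ext_unique (hΦ1 _ h3) ⟨_, _, _, Or.inl rfl⟩ fun s => ?_
  rw [hΦ2, h2, dg_emb]

/-- **`Φ(Y)` satisfies the hypotheses of the group side.** -/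
theorem gy [Fintype K] (q4 : 4 ≤ Fintype.card K) (char2 : ∃ n : ℕ, Fintype.card K = 2 ^ n)
    (hd1 : ∀ lam : Kˣ, ∃ l t, d.act l = MulAut.conj t * dt lam⁻¹ (lam ^ 2))
    (hd2 : ∀ lam : Kˣ, ∃ l t, d.act l = MulAut.conj t * dt (lam ^ 2) lam⁻¹)
    (hcard : ∃ m, Odd m ∧ Nat.card L = 2 * Fintype.card K ^ 3 * m)
    (hx : ∃ (l : L) (t : Hs K), t.b = 0 ∧ (d.act l t).b ≠ 0)
    {Φ : L →* MulAut (SL3 K)} (hΦ1 : ∀ y ∈ d.Y, Φ y ∈ DD K)
    (hΦ2 : ∀ l s, Φ l (emb s) = emb (d.act l s)) (hinj : Function.Injective Φ) : GY (d.Y.map Φ) where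
  q4 := q4
  char2 := char2
  le := by
    rintro _ ⟨y, hy, rfl⟩
    exact hΦ1 y hy
  tor := by
    intro w hw
    have h1 : dg (w 1 * (w 2)⁻¹) (w 0 * (w 1)⁻¹) (RingEquiv.refl K) = dconj w := by
      ext1 g
      refine ext3 fun i j => ?_
      rw [dg_apply, dconj_apply]
      fin_cases i <;> fin_cases j <;> simp [wv] <;> field_simp
    rw [← h1]
    obtain ⟨l1, t1, h2⟩ := hd1 (w 0)
    obtain ⟨l2, t2, h3⟩ := hd2 (w 2)⁻¹
    have h4 : d.act (l1 * l2) = MulAut.conj (t1 * dt (w 0)⁻¹ (w 0 ^ 2) t2) *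
        dt ((w 0)⁻¹ * ((w 2)⁻¹) ^ 2) (w 0 ^ 2 * ((w 2)⁻¹)⁻¹) := by
      rw [map_mul, h2, h3, map_mul, mul_assoc, ← mul_assoc (dt (w 0)⁻¹ (w 0 ^ 2)), Hs.mul_conj, mul_assoc, dt_mul_dt,
        mul_assoc]
    have e1 : (w 0)⁻¹ * ((w 2)⁻¹) ^ 2 = w 1 * (w 2)⁻¹ := by
      have : w 1 = (w 0)⁻¹ * (w 2)⁻¹ := by
        rw [← mul_inv, eq_inv_iff_mul_eq_one, ← hw]
        rw [mul_comm (w 1), mul_assoc, mul_comm (w 2), ← mul_assoc]
      rw [this, pow_two, mul_assoc]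
    have e2 : w 0 ^ 2 * ((w 2)⁻¹)⁻¹ = w 0 * (w 1)⁻¹ := by
      have : (w 1)⁻¹ = w 0 * w 2 := by
        rw [inv_eq_iff_mul_eq_one, ← hw]
        rw [← mul_assoc, mul_comm (w 1)]
      rw [this, inv_inv, pow_two, mul_assoc]
    rw [e1, e2] at h4
    exact d.dconj_mem hΦ1 hΦ2 h4
  card := by
    obtain ⟨m, hm, hc⟩ := hcard
    refine ⟨m, hm, ?_⟩
    have e1 : Nat.card (d.Y.map Φ) = Nat.card d.Y := (Nat.card_congr (d.Y.equivMapOfInjective Φ hinj).toEquiv).symm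
    rw [e1]
    have e2 := d.card_L
    rw [hc, Nat.card_eq_fintype_card] at e2
    have e3 : 0 < Fintype.card K ^ 3 := by positivity
    apply Nat.eq_of_mul_eq_mul_left e3
    rw [← e2]; ring
  nle := by
    intro hle
    obtain ⟨l, t, ht, hlt⟩ := hx
    obtain ⟨s, y, hy, rfl⟩ := d.exists_eq l
    obtain ⟨ν, ν', σ, h1⟩ := hle ⟨y, hy, rfl⟩
    have h2 : d.act y t = del ν ν' σ t := by
      apply emb_injective
      rw [← hΦ2, h1, dg_emb]
    apply hlt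
    rw [map_mul, MulAut.mul_apply, h2, d.act_j, conj_apply, del_apply]
    simp [ht]

end SD

end Cfsg.Agent.H780.HL
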