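import Cfsg.Agent.H780.HL.Coord
import Cfsg.Agent.H780.HL.Model
import Cfsg.Agent.H780.HL.Phi

/-!
# S5175 [L]: the model of `N_F(T)` in coordinates (helper780)
-/

set_option autoImplicit false
set_option linter.unusedSectionVars false

namespace Cfsg.Agent.H780.HL

open Cfsg Cfsg.FusionSystem Cfsg.Agent.H756.HM Cfsg.Agent.H752 Hs

universe u

variable {Ω : Type u} [Group Ω] {S : Subgroup Ω} {F : FusionSystem S} {K : Type} [Field K] [Fintype K]
  {V T : Subgroup Ω} {x : Ω}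

/-- `V` is receptive, so automorphisms of `V` normalizing `Aut_T(V)` extend to `T`. -/
theorem ext_T [Finite S] (hS : IsPGroup 2 S) (hF : F.IsSaturated 2) (b : Big F K V T x) {α : MulAut V}
    (hα : α ∈ F.autGroup V)
    (h : ∀ t ∈ T, ∃ t' ∈ T, ∀ v v' : V, (v' : Ω) = t * v * t⁻¹ → ((α v' : V) : Ω) = t' * (α v : V) * t'⁻¹) :
    ∃ f, Mp F T f ∧ (∀ t ∈ T, f t ∈ T) ∧ ∀ (v : Ω) (hv : v ∈ V), f v = (α ⟨v, hv⟩ : V) := by
  have : Fact (Nat.Prime 2) := ⟨Nat.prime_two⟩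
  have : Finite V := H802.finite_of_le b.V_le
  have hrec := H802.isReceptive_of_isFullyNormalized hS hF b.fn
  have hφ : V.subtype.comp α.toMonoidHom ∈ F.Hom V := (H802.mem_autGroup_iff F b.V_le α).1 hα
  obtain ⟨ψ, hψ, h1⟩ := hrec.2 V _ hφ (by
    ext v
    constructor
    · rintro ⟨w, rfl⟩
      exact (α w).2
    · intro hv
      exact ⟨α⁻¹ ⟨v, hv⟩, by
        show ((α (α⁻¹ ⟨v, hv⟩) : V) : Ω) = v
        rw [MulAut.apply_inv_self]⟩)
  have hTN : ∀ t ∈ T, t ∈ Subgroup.normalizer (V : Set Ω) := by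
    intro t ht
    rw [← b.nor] at ht
    exact ht.2
  have hTe : T ≤ extender S V (V.subtype.comp α.toMonoidHom) := by
    intro t ht
    refine Subgroup.subset_closure ⟨T_le b ht, hTN t ht, ?_⟩
    obtain ⟨t', ht', h2⟩ := h t ht
    exact ⟨t', T_le b ht', fun v hv => h2 v ⟨_, hv⟩ rfl⟩
  have hm : Mp F T (ex ψ) := (mp_ex hψ).res hTe
  have hfV : ∀ (v : Ω) (hv : v ∈ V), ex ψ v = (α ⟨v, hv⟩ : V) := by
    intro v hv
    rw [ex_apply _ (hTe (V_le_T b hv))]
    exact h1 v hv _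
  refine ⟨ex ψ, hm, fun t ht => ?_, hfV⟩
  rw [← b.nor]
  refine ⟨hm.mem ht, ?_⟩
  obtain ⟨γ, hγ⟩ := H802.exists_conjAut (hTN t ht)
  refine H802.mem_normalizer_of_aut (α := α * γ * α⁻¹) fun v => ?_
  have e1 : (v : Ω) = ex ψ ((α⁻¹ v : V) : Ω) := by
    rw [hfV _ (α⁻¹ v).2]
    simp
  rw [MulAut.mul_apply, MulAut.mul_apply]
  rw [e1]
  have e2 : ((γ (α⁻¹ v) : V) : Ω) = t * ((α⁻¹ v : V) : Ω) * t⁻¹ := hγ _
  have h3 : ex ψ ((γ (α⁻¹ v) : V) : Ω) = ((α (γ (α⁻¹ v)) : V) : Ω) := hfV _ (γ (α⁻¹ v)).2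
  have hvT : ((α⁻¹ v : V) : Ω) ∈ T := V_le_T b (α⁻¹ v).2
  rw [← h3, e2, hm.mul (mul_mem ht hvT) (inv_mem ht), hm.mul ht hvT, hm.inv ht]

section Kap

variable {b : Big F K V T x} (c : LC b)

/-- conjugation in coordinates -/
theorem kap_conj (t s : Hs K) : kap c t * kap c s * (kap c t)⁻¹ = kap c ⟨s.a, s.b, s.c + (t.b * s.a - s.b * t.a)⟩ := by
  rw [← map_inv, ← map_mul, ← map_mul, conj_eq]

/-- the Cartan elements of `E` extend to `T`. -/
theorem exists_cartan [Finite S] (hS : IsPGroup 2 S) (hF : F.IsSaturated 2) (lam : Kˣ) :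
    ∃ f, Mp F T f ∧ (∀ t ∈ T, f t ∈ T) ∧ ∀ a d : K, f (kap c ⟨a, 0, d⟩) = kap c ⟨((lam⁻¹ : Kˣ) : K) * a, 0, (lam : K) * d⟩ := by
  obtain ⟨e, he, hE⟩ := c.E2 ⟨!![(lam : K), 0; 0, ((lam⁻¹ : Kˣ) : K)], by simp [Matrix.det_fin_two]⟩
  have hE' : ∀ (a d : K) (h : kap c ⟨a, 0, d⟩ ∈ V), ((e ⟨kap c ⟨a, 0, d⟩, h⟩ : V) : Ω) =
      kap c ⟨((lam⁻¹ : Kˣ) : K) * a, 0, (lam : K) * d⟩ := by
    intro a d h
    have := hE a d h
    simp only [Matrix.of_apply, Matrix.cons_val', Matrix.cons_val_zero, Matrix.cons_val_one, Matrix.cons_val_fin_one,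
      zero_mul, zero_add, add_zero] at this
    exact this
  obtain ⟨f, hf, hfT, hfV⟩ := ext_T hS hF b (b.E_le he) (by
    intro t ht
    obtain ⟨s, rfl⟩ := kap_surj c ht
    refine ⟨kap c ⟨0, (lam : K) ^ 2 * s.b, 0⟩, kap_mem c _, fun v v' hvv' => ?_⟩
    obtain ⟨r, hr⟩ := kap_surj c (V_le_T b v.2)
    have hrb : r.b = 0 := by rw [← kap_V c, hr]; exact v.2
    obtain ⟨a, b', d⟩ := r
    simp only at hrb
    subst hrb
    have hv : v = ⟨kap c ⟨a, 0, d⟩, by rw [hr]; exact v.2⟩ := Subtype.ext hr.symm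
    have h2 : (v' : Ω) = kap c ⟨a, 0, d + s.b * a⟩ := by
      rw [hvv', ← hr, kap_conj]
      congr 2
      simp
    have hv' : v' = ⟨kap c ⟨a, 0, d + s.b * a⟩, by rw [← h2]; exact v'.2⟩ := Subtype.ext h2
    rw [hv', hE', hv, hE', kap_conj]
    congr 2
    have : (lam : K) * ((lam⁻¹ : Kˣ) : K) = 1 := by simp
    simp only [zero_mul, sub_zero]
    linear_combination (-(lam : K) * s.b * a) * this)
  exact ⟨f, hf, hfT, fun a d => by rw [hfV _ ((kap_V c _).2 rfl), hE']⟩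

theorem del_gam_dt (κ κ' : Kˣ) (σ : K ≃+* K) (ν ν' : Kˣ) :
    (del κ κ' σ * gam) * dt ν ν' = dt (Units.map (σ : K →* K) ν') (Units.map (σ : K →* K) ν) * (del κ κ' σ * gam) := by
  rw [mul_assoc, dt, dt, gam_mul_del, ← mul_assoc, ← mul_assoc, del_mul_del, del_mul_del]
  congr 2
  · rw [mul_comm]; rfl
  · rw [mul_comm]; rfl

theorem conj_swap {ξ : MulAut (Hs K)} {s : Hs K} (t : Hs K) {κ κ' : Kˣ} {σ : K ≃+* K} (ν ν' : Kˣ)
    (h : ξ = MulAut.conj s * (del κ κ' σ * gam)) : ξ * (MulAut.conj t * dt ν ν') * ξ⁻¹ =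
      MulAut.conj (ξ t * s * dt (Units.map (σ : K →* K) ν') (Units.map (σ : K →* K) ν) s⁻¹) *
        dt (Units.map (σ : K →* K) ν') (Units.map (σ : K →* K) ν) := by
  obtain ⟨D, hD⟩ : ∃ D, D = dt (K := K) (Units.map (σ : K →* K) ν') (Units.map (σ : K →* K) ν) := ⟨_, rfl⟩
  rw [← hD]
  have e0 : del κ κ' σ * gam = MulAut.conj s⁻¹ * ξ := by rw [h, map_inv, inv_mul_cancel_left]
  have e1 : ξ * dt ν ν' = MulAut.conj s * (D * (MulAut.conj s⁻¹ * ξ)) := by
    nth_rw 1 [h]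
    rw [mul_assoc, del_gam_dt, ← hD, e0]
  rw [← mul_assoc ξ, Hs.mul_conj, mul_assoc (MulAut.conj (ξ t)), e1, ← mul_assoc D, Hs.mul_conj, mul_inv_eq_iff_eq_mul,
    map_mul, map_mul]
  simp only [mul_assoc]

/-- **The model in coordinates.** -/
theorem exists_SD [Finite S] (hS : IsPGroup 2 S) (hF : F.IsSaturated 2) {L : Type*} [Group L] [Finite L]
    {ι : S →* L} (hM : MdT F T L ι 2) :
    ∃ d : SD K L, (∀ (t : Hs K) (h : kap c t ∈ S), d.j t = ι ⟨kap c t, h⟩) ∧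
      (∀ lam : Kˣ, ∃ l t, d.act l = MulAut.conj t * dt lam⁻¹ (lam ^ 2)) ∧
      (∀ lam : Kˣ, ∃ l t, d.act l = MulAut.conj t * dt (lam ^ 2) lam⁻¹) ∧
      (∃ m, Odd m ∧ Nat.card L = 2 * Fintype.card K ^ 3 * m) ∧
      (∃ (l : L) (t : Hs K), t.b = 0 ∧ (d.act l t).b ≠ 0) := by
  have : Fact (Nat.Prime 2) := ⟨Nat.prime_two⟩
  have h20 := two_zero b
  have hTS := T_le b
  -- `j`
  let j₀ : Hs K →* S := (kap c).codRestrict S fun t => hTS (kap_mem c t)
  obtain ⟨j, hj⟩ : ∃ j : Hs K →* L, j = ι.comp j₀ := ⟨_, rfl⟩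
  have hj1 : ∀ (t : Hs K) (h : kap c t ∈ S), j t = ι ⟨kap c t, h⟩ := fun t h => by rw [hj]; rfl
  have hjinj : Function.Injective j := by
    intro s t h
    rw [hj1 s (hTS (kap_mem c s)), hj1 t (hTS (kap_mem c t))] at h
    exact kap_inj c (congrArg Subtype.val (hM.inj h))
  have hrange : j.range = (T.subgroupOf S).map ι := by
    ext l
    constructor
    · rintro ⟨t, rfl⟩
      exact ⟨⟨kap c t, hTS (kap_mem c t)⟩, kap_mem c t, (hj1 t _).symm⟩
    · rintro ⟨t, ht, rfl⟩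
      obtain ⟨s, hs⟩ := kap_surj c (show (t : Ω) ∈ T from ht)
      refine ⟨s, ?_⟩
      rw [hj1 s (hTS (kap_mem c s))]
      congr 1
      exact Subtype.ext hs
  have hnor : j.range.Normal := by rw [hrange]; exact hM.nor
  -- `act`
  let e : Hs K ≃* j.range := MonoidHom.ofInjective hjinj
  have he : ∀ t, ((e t : j.range) : L) = j t := fun t => rfl
  have he' : ∀ t : j.range, j (e.symm t) = t := fun t => by rw [← he, MulEquiv.apply_symm_apply]
  obtain ⟨act, hact⟩ : ∃ act : L →* MulAut (Hs K), ∀ l t, act l t = e.symm (MulAut.conjNormal l (e t)) :=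
    ⟨(MulAut.congr e.symm).toMonoidHom.comp MulAut.conjNormal, fun l t => rfl⟩
  have hja : ∀ l t, l * j t * l⁻¹ = j (act l t) := by
    intro l t
    rw [hact, he', MulAut.conjNormal_apply, he]
  -- maps of `F` and elements of `L`
  have hfl : ∀ l : L, ∃ f, Mp F T f ∧ (∀ t ∈ T, f t ∈ T) ∧ ∀ t, f (kap c t) = kap c (act l t) := by
    intro l
    obtain ⟨f, hf, h1⟩ := hM.of_L T hTS l (by
      rintro ⟨t, ht⟩
      obtain ⟨s, hs⟩ := kap_surj c ht
      subst hs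
      refine ⟨⟨kap c (act l s), hTS (kap_mem c _)⟩, ?_⟩
      rw [← hj1, ← hj1, hja])
    have h2 : ∀ t, f (kap c t) = kap c (act l t) := by
      intro t
      obtain ⟨h3, h4⟩ := h1 _ (kap_mem c t)
      rw [← hj1, hja, hj1 _ (hTS (kap_mem c _))] at h4
      exact congrArg Subtype.val (hM.inj h4)
    refine ⟨f, hf, fun t ht => ?_, h2⟩
    obtain ⟨s, rfl⟩ := kap_surj c ht
    rw [h2]
    exact kap_mem c _
  have hlf : ∀ (f : Ω → Ω) (α : MulAut (Hs K)), Mp F T f → (∀ t, f (kap c t) = kap c (α t)) → ∃ l, act l = α := by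
    intro f α hf hα
    obtain ⟨l, hl⟩ := hM.to_L T f hf le_rfl (by
      intro t ht
      obtain ⟨s, rfl⟩ := kap_surj c ht
      rw [hα]
      exact kap_mem c _)
    refine ⟨l, ?_⟩
    ext1 t
    apply hjinj
    obtain ⟨h3, h4⟩ := hl _ (kap_mem c t) (hTS (kap_mem c t))
    rw [← hja, hj1 t (hTS (kap_mem c t)), ← h4, hj1 _ (hTS (kap_mem c _))]
    congr 1
    exact Subtype.ext (hα t)
  -- the form
  have hform1 : ∀ l, (∀ t : Hs K, t.b = 0 → (act l t).b = 0) → (∀ t : Hs K, t.a = 0 → (act l t).a = 0) →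
      ∃ (t : Hs K) (ν ν' : Kˣ) (σ : K ≃+* K), act l = MulAut.conj t * del ν ν' σ := by
    intro l h1 h2
    obtain ⟨f, hf, -, h3⟩ := hfl l
    exact form_V c hf h3 h1 h2
  have hform2 : ∀ l, (∀ t : Hs K, t.b = 0 → (act l t).a = 0) → (∀ t : Hs K, t.a = 0 → (act l t).b = 0) →
      ∃ (t : Hs K) (ν ν' : Kˣ) (σ : K ≃+* K), act l = MulAut.conj t * (del ν ν' σ * gam) := by
    intro l h1 h2
    obtain ⟨f, hf, -, h3⟩ := hfl l
    exact form_Vx c hf h3 h1 h2
  have hform : ∀ l, ∃ t, ∃ δ ∈ DDh K, act l = MulAut.conj t * δ := by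
    intro l
    rcases aut_cases h20 (act l) with h | h
    · obtain ⟨t, ν, ν', σ, h1⟩ := hform1 l h.1 h.2
      exact ⟨t, _, ⟨_, _, _, Or.inl rfl⟩, h1⟩
    · obtain ⟨t, ν, ν', σ, h1⟩ := hform2 l h.1 h.2
      exact ⟨t, _, ⟨_, _, _, Or.inr rfl⟩, h1⟩
  -- the Cartan elements
  have hcar : ∀ lam : Kˣ, ∃ l t, act l = MulAut.conj t * dt lam⁻¹ (lam ^ 2) := by
    intro lam
    obtain ⟨f, hf, hfT, h1⟩ := exists_cartan c hS hF lam
    obtain ⟨α, hα⟩ := exists_alpha c hf hfT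
    have h2 : ∀ a d : K, α ⟨a, 0, d⟩ = ⟨((lam⁻¹ : Kˣ) : K) * a, 0, (lam : K) * d⟩ := fun a d =>
      kap_inj c (by rw [← hα, h1])
    obtain ⟨l, hl⟩ := hlf f α hf hα
    subst hl
    rcases aut_cases h20 (act l) with h | h
    · obtain ⟨t, ν, ν', σ, h3⟩ := hform1 l h.1 h.2
      refine ⟨l, t, ?_⟩
      have h4 : ∀ a d : K, ((ν : K) * σ a = ((lam⁻¹ : Kˣ) : K) * a) ∧
          ((ν : K) * ν' * σ d + t.b * ((ν : K) * σ a) = (lam : K) * d) := by
        intro a d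
        have e1 := h2 a d
        rw [h3, MulAut.mul_apply, conj_apply, del_apply] at e1
        have e2 := congrArg Hs.a e1
        have e3 := congrArg Hs.c e1
        simp only [map_zero, mul_zero, zero_mul, sub_zero] at e2 e3
        exact ⟨e2, e3⟩
      have e1 : ν = lam⁻¹ := Units.ext (by simpa using (h4 1 0).1)
      subst e1
      have e2 : ν' = lam ^ 2 := by
        apply Units.ext
        have e3 := (h4 0 1).2
        simp only [map_one, map_zero, mul_zero, add_zero, mul_one] at e3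
        rw [Units.val_pow_eq_pow_val]
        have e4 : (lam : K) * ((lam⁻¹ : Kˣ) : K) = 1 := by simp
        linear_combination (lam : K) * e3 - (ν' : K) * e4
      subst e2
      have e3 : σ = RingEquiv.refl K := by
        ext a
        have := (h4 a 0).1
        exact mul_left_cancel₀ (lam⁻¹).ne_zero this
      subst e3
      exact h3
    · exfalso
      have e1 := h.1 ⟨1, 0, 0⟩ rfl
      rw [h2] at e1
      simp at e1
  -- the element `x`
  have hxS := b.x_mem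
  have hxact : ∀ t, kap c (act (ι ⟨x, hxS⟩) t) = x * kap c t * x⁻¹ := by
    intro t
    have h1 := hja (ι ⟨x, hxS⟩) t
    rw [hj1 t (hTS (kap_mem c t)), hj1 _ (hTS (kap_mem c _)), ← map_mul, ← map_inv, ← map_mul] at h1
    exact (congrArg Subtype.val (hM.inj h1)).symm
  have hx1 : ∃ t : Hs K, t.b = 0 ∧ act (ι ⟨x, hxS⟩) t = ⟨0, 1, 0⟩ := by
    have h1 : kap c ⟨0, 1, 0⟩ ∈ cj x V := (kap_Vx c _).2 rfl
    obtain ⟨t, ht⟩ := kap_surj c (V_le_T b (mem_cj.1 h1))
    refine ⟨t, ?_, ?_⟩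
    · rw [← kap_V c, ht]; exact mem_cj.1 h1
    · apply kap_inj c
      rw [hxact, ht]; group
  have hcar2 : ∀ lam : Kˣ, ∃ l t, act l = MulAut.conj t * dt (lam ^ 2) lam⁻¹ := by
    intro lam
    obtain ⟨ξ, hξ⟩ : ∃ ξ, ξ = ι ⟨x, hxS⟩ := ⟨_, rfl⟩
    rw [← hξ] at hx1
    rcases aut_cases h20 (act ξ) with h | h
    · exfalso
      obtain ⟨t, ht, h1⟩ := hx1
      have := h.1 t ht
      rw [h1] at this
      exact one_ne_zero this
    · obtain ⟨s, κ, κ', σ, h1⟩ := hform2 ξ h.1 h.2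
      obtain ⟨l, t, h2⟩ := hcar (Units.map (σ.symm : K →* K) lam)
      refine ⟨ξ * l * ξ⁻¹, act ξ t * s * dt (lam ^ 2) lam⁻¹ s⁻¹, ?_⟩
      have e1 : Units.map (σ : K →* K) ((Units.map (σ.symm : K →* K) lam) ^ 2) = lam ^ 2 := by
        rw [map_pow]; congr 1; ext; simp
      have e2 : Units.map (σ : K →* K) (Units.map (σ.symm : K →* K) lam)⁻¹ = lam⁻¹ := by
        rw [map_inv]; congr 1; ext; simp
      rw [map_mul, map_mul, map_inv, h2, conj_swap t _ _ h1, e1, e2]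
  -- a good Cartan element
  obtain ⟨lam, hlam⟩ : ∃ lam : Kˣ, lam ≠ 1 := by
    classical
    have h1 : 1 < Fintype.card Kˣ := by
      rw [Fintype.card_units]
      have := b.q4
      omega
    have := Fintype.one_lt_card_iff_nontrivial.1 h1
    exact exists_ne 1
  obtain ⟨l₀, t₀, h₀⟩ := hcar lam
  refine ⟨{ act := act
            j := j
            inj := hjinj
            hj := hja
            ker := ?_
            form := hform
            h := j t₀⁻¹ * l₀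
            ν := lam⁻¹
            ν' := lam ^ 2
            hν := fun h => hlam (inv_eq_one.1 h)
            hν' := ?_
            hνν' := ?_
            act_h := ?_ }, hj1, hcar, hcar2, ?_, ι ⟨x, hxS⟩, ?_⟩
  · intro l hl
    have h1 : l ∈ Subgroup.centralizer (((T.subgroupOf S).map ι : Subgroup L) : Set L) := by
      rw [← hrange, Subgroup.mem_centralizer_iff]
      rintro _ ⟨t, rfl⟩
      have := hja l t
      rw [hl] at this
      exact (mul_inv_eq_iff_eq_mul.1 this).symm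
    have h2 := hM.cen h1
    rw [← hrange] at h2
    obtain ⟨t, ht⟩ := h2
    exact ⟨t, ht.symm⟩
  · intro h
    apply hlam
    have h1 : (lam : K) ^ 2 = 1 := by rw [← Units.val_pow_eq_pow_val, h]; rfl
    have h2 : ((lam : K) - 1) * ((lam : K) - 1) = 0 := by linear_combination h1 + (1 - (lam : K)) * h20
    exact Units.ext (sub_eq_zero.1 (mul_self_eq_zero.1 h2))
  · intro h
    apply hlam
    rw [pow_two, inv_mul_cancel_left] at h
    exact h
  · rw [map_mul, h₀]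
    have h1 : act (j t₀⁻¹) = MulAut.conj t₀⁻¹ := by
      ext1 s
      apply hjinj
      rw [← hja, MulAut.conj_apply, map_mul, map_mul, map_inv]
      simp
    rw [h1, map_inv, inv_mul_cancel_left]
  · obtain ⟨P, hP⟩ := hM.syl
    have h1 : Nat.card P = Nat.card S := by
      rw [show Nat.card P = Nat.card (P : Subgroup L) from rfl, hP]
      exact (Nat.card_congr (MonoidHom.ofInjective hM.inj).toEquiv).symm
    have h2 : Nat.card S = 2 * Fintype.card K ^ 3 := by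
      have h3 : Nat.card (T.subgroupOf S) * (T.subgroupOf S).index = Nat.card S := Subgroup.card_mul_index _
      have h4 : (T.subgroupOf S).index = 2 := b.S_idx
      have h5 : Nat.card (T.subgroupOf S) = Nat.card T := Nat.card_congr (Subgroup.subgroupOfEquivOfLe hTS).toEquiv
      rw [h4, h5, ← Nat.card_congr (kapE c).toEquiv, card_hs, Nat.card_eq_fintype_card] at h3
      rw [← h3]; ring
    refine ⟨(P : Subgroup L).index, ?_, ?_⟩
    · have := P.not_dvd_index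
      rwa [Nat.odd_iff, ← Nat.two_dvd_ne_zero]
    · rw [← Subgroup.card_mul_index (P : Subgroup L), ← h2, ← h1]
  · obtain ⟨t, ht, h1⟩ := hx1
    exact ⟨t, ht, by show (act _ t).b ≠ 0; rw [h1]; exact one_ne_zero⟩

end Kap

end Cfsg.Agent.H780.HL
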