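import Cfsg.Agent.H780.HL.SL3

/-!
# S5175 [L]: the Heisenberg group in coordinates and its automorphisms (helper780)
-/

set_option autoImplicit false

namespace Cfsg.Agent.H780.HL

/-- the Heisenberg group over `K`: `(a, b, c)` stands for `!![1, b, c; 0, 1, a; 0, 0, 1]` -/
@[ext] structure Hs (K : Type*) where
  a : K
  b : K
  c : K

variable {K : Type*} [Field K]

namespace Hs

instance : Mul (Hs K) := ⟨fun s t => ⟨s.a + t.a, s.b + t.b, s.c + t.c + s.b * t.a⟩⟩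
instance : One (Hs K) := ⟨⟨0, 0, 0⟩⟩
instance : Inv (Hs K) := ⟨fun s => ⟨-s.a, -s.b, -s.c + s.b * s.a⟩⟩

theorem mul_def (s t : Hs K) : s * t = ⟨s.a + t.a, s.b + t.b, s.c + t.c + s.b * t.a⟩ := rfl
theorem one_def : (1 : Hs K) = ⟨0, 0, 0⟩ := rfl
theorem inv_def (s : Hs K) : s⁻¹ = ⟨-s.a, -s.b, -s.c + s.b * s.a⟩ := rfl

instance : Group (Hs K) where
  mul_assoc s t u := by
    rw [mul_def, mul_def, mul_def, mul_def]
    ext <;> dsimp <;> ring
  one_mul s := by rw [one_def, mul_def]; ext <;> dsimp <;> ring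
  mul_one s := by rw [one_def, mul_def]; ext <;> dsimp <;> ring
  inv_mul_cancel s := by rw [inv_def, mul_def, one_def]; ext <;> dsimp <;> ring

@[simp] theorem mul_a (s t : Hs K) : (s * t).a = s.a + t.a := rfl
@[simp] theorem mul_b (s t : Hs K) : (s * t).b = s.b + t.b := rfl
@[simp] theorem mul_c (s t : Hs K) : (s * t).c = s.c + t.c + s.b * t.a := rfl
@[simp] theorem one_a : (1 : Hs K).a = 0 := rfl
@[simp] theorem one_b : (1 : Hs K).b = 0 := rfl
@[simp] theorem one_c : (1 : Hs K).c = 0 := rfl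
@[simp] theorem inv_a (s : Hs K) : (s⁻¹).a = -s.a := rfl
@[simp] theorem inv_b (s : Hs K) : (s⁻¹).b = -s.b := rfl
@[simp] theorem inv_c (s : Hs K) : (s⁻¹).c = -s.c + s.b * s.a := rfl

theorem conj_eq (t s : Hs K) : t * s * t⁻¹ = ⟨s.a, s.b, s.c + (t.b * s.a - s.b * t.a)⟩ := by
  ext <;> simp <;> ring

theorem conj_apply (t s : Hs K) : MulAut.conj t s = ⟨s.a, s.b, s.c + (t.b * s.a - s.b * t.a)⟩ := conj_eq t s

/-- the embedding in `SL₃(K)` -/
def emb : Hs K →* SL3 K where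
  toFun t := um t.a t.b t.c
  map_one' := um_zero
  map_mul' s t := (um_mul _ _ _ _ _ _).symm

theorem emb_apply (t : Hs K) : emb t = um t.a t.b t.c := rfl

theorem emb_injective : Function.Injective (emb : Hs K → SL3 K) := by
  intro s t h
  obtain ⟨h1, h2, h3⟩ := um_injective h
  exact Hs.ext h1 h2 h3

/-- the diagonal-field automorphism of the Heisenberg group -/
def del (ν ν' : Kˣ) (σ : K ≃+* K) : MulAut (Hs K) where
  toFun t := ⟨(ν : K) * σ t.a, (ν' : K) * σ t.b, (ν : K) * ν' * σ t.c⟩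
  invFun t := ⟨σ.symm (((ν⁻¹ : Kˣ) : K) * t.a), σ.symm (((ν'⁻¹ : Kˣ) : K) * t.b), σ.symm (((ν⁻¹ : Kˣ) : K) * (ν'⁻¹ : Kˣ) * t.c)⟩
  left_inv t := by
    ext
    · simp
    · simp
    · dsimp only
      rw [RingEquiv.symm_apply_eq]
      have h1 : ((ν⁻¹ : Kˣ) : K) * ν = 1 := by simp
      have h2 : ((ν'⁻¹ : Kˣ) : K) * ν' = 1 := by simp
      linear_combination (((ν'⁻¹ : Kˣ) : K) * ν' * σ t.c) * h1 + (σ t.c) * h2
  right_inv t := by
    ext
    · simp
    · simp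
    · dsimp only
      rw [RingEquiv.apply_symm_apply]
      have h1 : ((ν⁻¹ : Kˣ) : K) * ν = 1 := by simp
      have h2 : ((ν'⁻¹ : Kˣ) : K) * ν' = 1 := by simp
      linear_combination (((ν'⁻¹ : Kˣ) : K) * ν' * t.c) * h1 + (t.c) * h2
  map_mul' s t := by
    ext
    · simp [mul_add]
    · simp [mul_add]
    · simp only [mul_c, map_add, map_mul]
      ring

theorem del_apply (ν ν' : Kˣ) (σ : K ≃+* K) (t : Hs K) :
    del ν ν' σ t = ⟨(ν : K) * σ t.a, (ν' : K) * σ t.b, (ν : K) * ν' * σ t.c⟩ := rfl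

/-- the graph automorphism of the Heisenberg group -/
def gam : MulAut (Hs K) where
  toFun t := ⟨-t.b, -t.a, -t.c + t.b * t.a⟩
  invFun t := ⟨-t.b, -t.a, -t.c + t.b * t.a⟩
  left_inv t := by ext <;> simp; ring
  right_inv t := by ext <;> simp; ring
  map_mul' s t := by
    ext
    · simp; ring
    · simp; ring
    · simp; ring

theorem gam_apply (t : Hs K) : gam t = ⟨-t.b, -t.a, -t.c + t.b * t.a⟩ := rfl

theorem dg_emb (ν ν' : Kˣ) (σ : K ≃+* K) (t : Hs K) : dg ν ν' σ (emb t) = emb (del ν ν' σ t) := by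
  rw [emb_apply, dg_um, emb_apply, del_apply]

theorem gr_emb (t : Hs K) : gr (emb t) = emb (gam t) := by
  rw [emb_apply, gr_um, emb_apply, gam_apply]

theorem gam_mul_gam : (gam : MulAut (Hs K)) * gam = 1 := by
  ext1 t
  apply emb_injective
  rw [MulAut.mul_apply, ← gr_emb, ← gr_emb, ← MulAut.mul_apply, gr_mul_gr]
  rfl

theorem del_mul_del (ν ν' μ μ' : Kˣ) (σ τ : K ≃+* K) : del ν ν' σ * del μ μ' τ =
    del (ν * Units.map (σ : K →* K) μ) (ν' * Units.map (σ : K →* K) μ') (τ.trans σ) := by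
  ext1 t
  apply emb_injective
  rw [MulAut.mul_apply, ← dg_emb, ← dg_emb, ← MulAut.mul_apply, dg_mul_dg, dg_emb]

theorem gam_mul_del (ν ν' : Kˣ) (σ : K ≃+* K) : gam * del ν ν' σ = del ν' ν σ * gam := by
  ext1 t
  apply emb_injective
  rw [MulAut.mul_apply, MulAut.mul_apply, ← gr_emb, ← dg_emb, ← dg_emb, ← gr_emb, ← MulAut.mul_apply, ← MulAut.mul_apply,
    gr_mul_dg]

theorem del_one : del (1 : Kˣ) 1 (RingEquiv.refl K) = 1 := by
  ext1 t
  ext <;> simp [del_apply]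

theorem del_inv (ν ν' : Kˣ) (σ : K ≃+* K) : (del ν ν' σ)⁻¹ =
    del (Units.map (σ.symm : K →* K) ν⁻¹) (Units.map (σ.symm : K →* K) ν'⁻¹) σ.symm := by
  rw [inv_eq_iff_mul_eq_one, del_mul_del, ← del_one]
  congr 1
  · ext; simp
  · ext; simp
  · ext; simp

/-- `del ν ν' σ` and conjugations -/
theorem mul_conj {G : Type*} [Group G] (α : MulAut G) (t : G) : α * MulAut.conj t = MulAut.conj (α t) * α := by
  ext1 s
  simp [MulAut.mul_apply, MulAut.conj_apply]

variable (K)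

/-- the diagonal-field automorphisms -/
def DFh : Subgroup (MulAut (Hs K)) where
  carrier := {α | ∃ ν ν' σ, α = del ν ν' σ}
  one_mem' := ⟨1, 1, _, del_one.symm⟩
  mul_mem' := by
    rintro _ _ ⟨ν, ν', σ, rfl⟩ ⟨μ, μ', τ, rfl⟩
    exact ⟨_, _, _, del_mul_del ν ν' μ μ' σ τ⟩
  inv_mem' := by
    rintro _ ⟨ν, ν', σ, rfl⟩
    exact ⟨_, _, _, del_inv ν ν' σ⟩

/-- the diagonal-field-graph automorphisms -/
def DDh : Subgroup (MulAut (Hs K)) where
  carrier := {α | ∃ ν ν' σ, α = del ν ν' σ ∨ α = del ν ν' σ * gam}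
  one_mem' := ⟨1, 1, _, Or.inl del_one.symm⟩
  mul_mem' := by
    rintro _ _ ⟨ν, ν', σ, rfl | rfl⟩ ⟨μ, μ', τ, rfl | rfl⟩
    · exact ⟨_, _, _, Or.inl (del_mul_del ν ν' μ μ' σ τ)⟩
    · exact ⟨_, _, _, Or.inr (by rw [← mul_assoc, del_mul_del])⟩
    · exact ⟨_, _, _, Or.inr (by rw [mul_assoc, gam_mul_del, ← mul_assoc, del_mul_del])⟩
    · exact ⟨_, _, _, Or.inl (by rw [mul_assoc, ← mul_assoc gam, gam_mul_del, mul_assoc, gam_mul_gam, mul_one, del_mul_del])⟩
  inv_mem' := by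
    rintro _ ⟨ν, ν', σ, rfl | rfl⟩
    · exact ⟨_, _, _, Or.inl (del_inv ν ν' σ)⟩
    · have h1 : (gam : MulAut (Hs K))⁻¹ = gam := inv_eq_of_mul_eq_one_left gam_mul_gam
      have h2 := gam_mul_del (Units.map (σ.symm : K →* K) ν⁻¹) (Units.map (σ.symm : K →* K) ν'⁻¹) σ.symm
      rw [← del_inv] at h2
      exact ⟨_, _, _, Or.inr (by rw [mul_inv_rev, h1]; exact h2)⟩

variable {K}

/-- If `conj t * del ν ν' σ = del μ μ' τ` then `t` is central and the data agree on the coordinates. -/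
theorem conj_del_inj {t : Hs K} {ν ν' μ μ' : Kˣ} {σ τ : K ≃+* K} (h : MulAut.conj t * del ν ν' σ = del μ μ' τ) :
    t.a = 0 ∧ t.b = 0 ∧ ν = μ ∧ ν' = μ' ∧ σ = τ := by
  have h1 : ∀ s, MulAut.conj t (del ν ν' σ s) = del μ μ' τ s := fun s => by rw [← h]; rfl
  have ha := fun x : K => h1 ⟨x, 0, 0⟩
  have hb := fun x : K => h1 ⟨0, x, 0⟩
  simp only [conj_apply, del_apply, map_zero, mul_zero, zero_mul, sub_zero, zero_sub, zero_add, Hs.mk.injEq] at ha hb
  have e1 : (ν : K) = μ := by simpa using (ha 1).1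
  have e2 : (ν' : K) = μ' := by simpa using (hb 1).2.1
  refine ⟨?_, ?_, Units.ext e1, Units.ext e2, ?_⟩
  · have := (hb 1).2.2
    simp at this
    exact this
  · have := (ha 1).2.2
    simp at this
    exact this
  · ext x
    have := (ha x).1
    rw [e1] at this
    exact mul_left_cancel₀ μ.ne_zero this

end Hs

end Cfsg.Agent.H780.HL
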