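import Cfsg.Agent.H780.HL.AutHs

/-!
# S5175 [L]: elementary abelian subgroups of the Heisenberg group in characteristic 2 (helper780)
-/

set_option autoImplicit false

namespace Cfsg.Agent.H780.HL

namespace Hs

variable {K : Type*} [Field K]

theorem comm_iff (s t : Hs K) : s * t = t * s ↔ s.b * t.a = t.b * s.a := by
  constructor
  · intro h
    have := congrArg Hs.c h
    simp only [mul_c] at this
    linear_combination this
  · intro h
    ext
    · simp [add_comm]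
    · simp [add_comm]
    · simp only [mul_c]
      linear_combination h

theorem ab_of_sq (h2 : (2 : K) = 0) {s : Hs K} (h : s * s = 1) : s.a = 0 ∨ s.b = 0 := by
  have := congrArg Hs.c h
  simp only [mul_c, one_c] at this
  have h3 : s.b * s.a = 0 := by linear_combination this - s.c * h2
  rcases mul_eq_zero.1 h3 with h | h
  · exact Or.inr h
  · exact Or.inl h

theorem sq_of (h2 : (2 : K) = 0) {s : Hs K} (h : s.a = 0 ∨ s.b = 0) : s * s = 1 := by
  have h3 : s.b * s.a = 0 := by rcases h with h | h <;> rw [h] <;> simp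
  ext
  · simp only [mul_a, one_a]; linear_combination s.a * h2
  · simp only [mul_b, one_b]; linear_combination s.b * h2
  · simp only [mul_c, one_c]; linear_combination s.c * h2 + h3

theorem ab_set (h2 : (2 : K) = 0) (B : Hs K → Prop) (h1 : ∀ s, B s → s * s = 1)
    (h3 : ∀ s, B s → ∀ s', B s' → s * s' = s' * s) : (∀ s, B s → s.b = 0) ∨ (∀ s, B s → s.a = 0) := by
  by_cases h : ∀ s, B s → s.b = 0
  · exact Or.inl h
  · push Not at h
    obtain ⟨s, hs, hsb⟩ := h
    right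
    intro t ht
    have h4 := (comm_iff s t).1 (h3 s hs t ht)
    have h5 : s.a = 0 := (ab_of_sq h2 (h1 s hs)).resolve_right hsb
    rw [h5, mul_zero] at h4
    exact (mul_eq_zero.1 h4).resolve_left hsb

theorem aut_cases (h2 : (2 : K) = 0) (α : MulAut (Hs K)) :
    ((∀ t : Hs K, t.b = 0 → (α t).b = 0) ∧ (∀ t : Hs K, t.a = 0 → (α t).a = 0)) ∨
    ((∀ t : Hs K, t.b = 0 → (α t).a = 0) ∧ (∀ t : Hs K, t.a = 0 → (α t).b = 0)) := by
  have hV := ab_set h2 (fun s => ∃ t : Hs K, t.b = 0 ∧ α t = s) (by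
    rintro _ ⟨t, ht, rfl⟩
    rw [← map_mul, sq_of h2 (Or.inr ht), map_one]) (by
    rintro _ ⟨t, ht, rfl⟩ _ ⟨t', ht', rfl⟩
    rw [← map_mul, ← map_mul, (comm_iff t t').2 (by rw [ht, ht', zero_mul, zero_mul])])
  have hV' := ab_set h2 (fun s => ∃ t : Hs K, t.a = 0 ∧ α t = s) (by
    rintro _ ⟨t, ht, rfl⟩
    rw [← map_mul, sq_of h2 (Or.inl ht), map_one]) (by
    rintro _ ⟨t, ht, rfl⟩ _ ⟨t', ht', rfl⟩
    rw [← map_mul, ← map_mul, (comm_iff t t').2 (by rw [ht, ht', mul_zero, mul_zero])])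
  have hdec : ∀ t : Hs K, t = ⟨t.a, 0, t.c⟩ * ⟨0, t.b, 0⟩ := by intro t; ext <;> simp
  rcases hV with hV | hV
  · rcases hV' with hV' | hV'
    · exfalso
      have key : ∀ t : Hs K, (α t).b = 0 := by
        intro t
        rw [hdec t, map_mul, mul_b, hV _ ⟨⟨t.a, 0, t.c⟩, rfl, rfl⟩, hV' _ ⟨⟨0, t.b, 0⟩, rfl, rfl⟩, add_zero]
      have := key (α⁻¹ ⟨0, 1, 0⟩)
      rw [MulAut.apply_inv_self] at this
      exact one_ne_zero this
    · exact Or.inl ⟨fun t ht => hV _ ⟨t, ht, rfl⟩, fun t ht => hV' _ ⟨t, ht, rfl⟩⟩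
  · rcases hV' with hV' | hV'
    · exact Or.inr ⟨fun t ht => hV _ ⟨t, ht, rfl⟩, fun t ht => hV' _ ⟨t, ht, rfl⟩⟩
    · exfalso
      have key : ∀ t : Hs K, (α t).a = 0 := by
        intro t
        rw [hdec t, map_mul, mul_a, hV _ ⟨⟨t.a, 0, t.c⟩, rfl, rfl⟩, hV' _ ⟨⟨0, t.b, 0⟩, rfl, rfl⟩, add_zero]
      have := key (α⁻¹ ⟨1, 0, 0⟩)
      rw [MulAut.apply_inv_self] at this
      exact one_ne_zero this

theorem card_hs [Finite K] : Nat.card (Hs K) = Nat.card K ^ 3 := by
  have e : Hs K ≃ K × K × K :=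
    { toFun := fun t => (t.a, t.b, t.c)
      invFun := fun v => ⟨v.1, v.2.1, v.2.2⟩
      left_inv := fun t => rfl
      right_inv := fun v => rfl }
  rw [Nat.card_congr e, Nat.card_prod, Nat.card_prod]; ring

end Hs

end Cfsg.Agent.H780.HL
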